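import Mathlib
import Cfsg.Agent.H163.E6.Defs
import Cfsg.Agent.H952.F4.Jord
import Cfsg.Agent.H952.F4.Scott
import Cfsg.Agent.H952.F4.Gen
import Cfsg.Agent.H191.AltElts

/-!
# S5927, characteristic 2: pairs of dual modules with the cubic form, families of vectors (helper905)

* `PD σ σ'` : two representations on `I27 → F`, dual to each other through `tf` and compatible with `sh` (hence `cr`);
* `perp`, `finrank_perp` : orthogonal complement with respect to `tf`;
* `ts_le` : a totally singular subspace has dimension at most 13;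
* `scott2` : Scott's lemma for a pair;
* `Fam`, `Fam2`, `exists_fam`, `exists_fam2` : equivariant families of vectors indexed by points and pairs of points;
* `move` : transitivity of the alternating group.
-/

set_option autoImplicit false
set_option linter.unusedSectionVars false

namespace Cfsg.Agent.H905.E6T

open Cfsg Cfsg.Lie Module Equiv
open Cfsg.Agent.ChevalleyStructure.E6Min.Tables
open Cfsg.Agent.H952.F4 (ev es sh cr tf tr1 u0)
open Cfsg.Agent.H952.F4.Jord Cfsg.Agent.H163.E6

universe u

variable {F : Type u} [Field F]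

/-! ### algebra -/

theorem sh_zero : sh (0 : I27 → F) = 0 := by
  have h := sh_smul (0 : F) (0 : I27 → F)
  simpa using h

theorem cr_zero_left (x : I27 → F) : cr 0 x = 0 := by
  have h := cr_smul_left (0 : F) (0 : I27 → F) x
  simpa using h

theorem cr_zero_right (x : I27 → F) : cr x 0 = 0 := by rw [cr_comm, cr_zero_left]

theorem tf_zero_left (x : I27 → F) : tf 0 x = 0 := by
  have h := tf_smul_left (0 : F) (0 : I27 → F) x
  simpa using h

theorem tf_zero_right (x : I27 → F) : tf x 0 = 0 := by rw [tf_comm, tf_zero_left]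

/-- the trace form as a bilinear form -/
noncomputable def tfB (F : Type u) [Field F] : LinearMap.BilinForm F (I27 → F) :=
  LinearMap.mk₂ F (fun x y => tf x y) tf_add_left tf_smul_left tf_add_right tf_smul_right

theorem tfB_apply (x y : I27 → F) : tfB F x y = tf x y := rfl

/-- `cr` as a bilinear map -/
noncomputable def crB (F : Type u) [Field F] : (I27 → F) →ₗ[F] (I27 → F) →ₗ[F] (I27 → F) :=
  LinearMap.mk₂ F (fun x y => cr x y) cr_add_left cr_smul_left cr_add_right cr_smul_right

theorem crB_apply (x y : I27 → F) : crB F x y = cr x y := rfl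

theorem card_I27 : Fintype.card I27 = 27 := by decide

theorem finrank27 : finrank F (I27 → F) = 27 := by
  rw [finrank_pi, card_I27]

/-- orthogonal complement -/
def perp (M : Submodule F (I27 → F)) : Submodule F (I27 → F) where
  carrier := {y | ∀ x ∈ M, tf x y = 0}
  add_mem' := by
    intro a b ha hb x hx
    rw [tf_add_right, ha x hx, hb x hx, add_zero]
  zero_mem' := fun x _ => tf_zero_right x
  smul_mem' := by
    intro c a ha x hx
    rw [tf_smul_right, ha x hx, mul_zero]

theorem mem_perp {M : Submodule F (I27 → F)} {y : I27 → F} : y ∈ perp M ↔ ∀ x ∈ M, tf x y = 0 := Iff.rfl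

theorem finrank_perp (M : Submodule F (I27 → F)) : finrank F M + finrank F (perp M) = 27 := by
  have h1 : (tfB F).Nondegenerate := by
    constructor
    · intro x hx
      exact tf_nondeg fun y => hx y
    · intro x hx
      exact tf_nondeg fun y => by rw [tf_comm]; exact hx y
  have h2 : (tfB F).IsRefl := by
    intro x y h
    rw [tfB_apply] at h ⊢
    rw [tf_comm]; exact h
  have h3 : (tfB F).orthogonal M = perp M := by
    ext y
    rw [LinearMap.BilinForm.mem_orthogonal_iff, mem_perp]
    rfl
  have h4 := LinearMap.BilinForm.finrank_orthogonal h1 M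
  rw [h3, finrank27] at h4
  have h5 := Submodule.finrank_le M
  rw [finrank27] at h5
  omega

theorem perp_span {ι : Type*} {f : ι → I27 → F} {y : I27 → F} :
    y ∈ perp (Submodule.span F (Set.range f)) ↔ ∀ i, tf (f i) y = 0 := by
  constructor
  · intro h i
    exact h _ (Submodule.subset_span ⟨i, rfl⟩)
  · intro h x hx
    induction hx using Submodule.span_induction with
    | mem x hx => obtain ⟨i, rfl⟩ := hx; exact h i
    | zero => exact tf_zero_left _
    | add a b _ _ ha hb => rw [tf_add_left, ha, hb, add_zero]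
    | smul c a _ ha => rw [tf_smul_left, ha, mul_zero]

/-- totally singular subspaces have dimension at most 13 -/
theorem ts_le {M : Submodule F (I27 → F)} (hM : TS M) : finrank F M ≤ 13 := by
  have h1 : ∀ m ∈ M, cr (u0 F) m ∈ perp M := by
    intro m hm x hx
    rw [tf_comm, tf_cr, hM.2 m hm x hx, tf_zero_right]
  let f : M →ₗ[F] perp M := ((crB F (u0 F)).domRestrict M).codRestrict (perp M) (fun m => h1 m m.2)
  have hf : Function.Injective f := by
    rw [← LinearMap.ker_eq_bot, eq_bot_iff]
    rintro ⟨m, hm⟩ h
    have h2 : cr (u0 F) m = 0 := congrArg Subtype.val h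
    rw [cr_u0, sub_eq_zero] at h2
    have h3 := hM.1 m hm
    rw [← h2, sh_smul, sh_u0] at h3
    have h4 : tr1 m ^ 2 = 0 := by
      have h5 := congrFun h3 (0, 0, 0)
      simpa [u0] using h5
    have h5 : tr1 m = 0 := by simpa using h4
    rw [h5, zero_smul] at h2
    simp [← h2]
  have h2 := LinearMap.finrank_le_finrank_of_injective hf
  have h3 := finrank_perp M
  omega

/-- a span of pairwise orthogonal singular vectors -/
theorem ts_span {ι : Type*} {f : ι → I27 → F} (h1 : ∀ i, sh (f i) = 0) (h2 : ∀ i j, cr (f i) (f j) = 0) :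
    TS (Submodule.span F (Set.range f)) := by
  have h3 : ∀ x ∈ Submodule.span F (Set.range f), ∀ j, cr x (f j) = 0 := by
    intro x hx j
    induction hx using Submodule.span_induction with
    | mem x hx => obtain ⟨i, rfl⟩ := hx; exact h2 i j
    | zero => exact cr_zero_left _
    | add a b _ _ ha hb => rw [cr_add_left, ha, hb, add_zero]
    | smul c a _ ha => rw [cr_smul_left, ha, smul_zero]
  have h4 : ∀ x ∈ Submodule.span F (Set.range f), ∀ y ∈ Submodule.span F (Set.range f), cr x y = 0 := by
    intro x hx y hy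
    induction hy using Submodule.span_induction with
    | mem y hy => obtain ⟨i, rfl⟩ := hy; exact h3 x hx i
    | zero => exact cr_zero_right _
    | add a b _ _ ha hb => rw [cr_add_right, ha, hb, add_zero]
    | smul c a _ ha => rw [cr_smul_right, ha, smul_zero]
  refine ⟨?_, h4⟩
  intro x hx
  induction hx using Submodule.span_induction with
  | mem x hx => obtain ⟨i, rfl⟩ := hx; exact h1 i
  | zero => exact sh_zero
  | add a b ha' hb' ha hb => rw [sh_add, ha, hb, h4 a ha' b hb', add_zero, add_zero]
  | smul c a _ ha => rw [sh_smul, ha, smul_zero]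

/-- polarization of `cr_cr` -/
theorem cr_four (x t y z : I27 → F) :
    cr (cr x y) (cr t z) + cr (cr t y) (cr x z) + cr (cr x t) (cr y z) =
      tf (cr x t) y • z + tf (cr x t) z • y + tf x (cr y z) • t + tf t (cr y z) • x := by
  have h1 := cr_cr (x + t) y z
  have h2 := cr_cr x y z
  have h3 := cr_cr t y z
  simp only [sh_add, cr_add_left, cr_add_right, tf_add_left] at h1
  have h4 : cr (cr x y) (cr t z) + cr (cr t y) (cr x z) + cr (cr x t) (cr y z) =
      (cr (cr x y) (cr x z) + cr (cr x y) (cr t z) + (cr (cr t y) (cr x z) + cr (cr t y) (cr t z)) +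
        (cr (sh x) (cr y z) + cr (sh t) (cr y z) + cr (cr x t) (cr y z))) -
      (cr (cr x y) (cr x z) + cr (sh x) (cr y z)) - (cr (cr t y) (cr t z) + cr (sh t) (cr y z)) := by abel
  have h5 : cr (cr x y) (cr x z) + cr (cr x y) (cr t z) + (cr (cr t y) (cr x z) + cr (cr t y) (cr t z)) +
        (cr (sh x) (cr y z) + cr (sh t) (cr y z) + cr (cr x t) (cr y z)) =
      (tf (sh x) y + tf (sh t) y + tf (cr x t) y) • z + (tf (sh x) z + tf (sh t) z + tf (cr x t) z) • y +
        (tf x (cr y z) + tf t (cr y z)) • (x + t) := by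
    rw [← h1]; abel
  rw [h4, h2, h3, h5]
  module

/-! ### characteristic 2 -/

theorem add_self2 (h2 : (2 : F) = 0) {M : Type*} [AddCommGroup M] [Module F M] (x : M) : x + x = 0 := by
  rw [← two_smul F x, h2, zero_smul]

theorem cr_self2 (h2 : (2 : F) = 0) (x : I27 → F) : cr x x = 0 := by rw [cr_self, h2, zero_smul]

theorem eq_of_add2 (h2 : (2 : F) = 0) {M : Type*} [AddCommGroup M] [Module F M] {x y : M} (h : x + y = 0) : x = y := by
  have h1 : x = x + (y + y) := by rw [add_self2 h2, add_zero]
  rw [h1, ← add_assoc, h, zero_add]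

/-! ### pairs of modules -/

/-- two dual modules compatible with the cubic form -/
structure PD {G : Type*} [Group G] (σ σ' : Representation F G (I27 → F)) : Prop where
  htf : ∀ g x y, tf (σ g x) (σ' g y) = tf x y
  hsh : ∀ g x, sh (σ g x) = σ' g (sh x)
  hsh' : ∀ g x, sh (σ' g x) = σ g (sh x)

section PDs

variable {G : Type*} [Group G] {σ σ' : Representation F G (I27 → F)}

theorem PD.symm (h : PD σ σ') : PD σ' σ := ⟨fun g x y => by rw [tf_comm, h.htf, tf_comm], h.hsh', h.hsh⟩

theorem PD.hcr (h : PD σ σ') (g : G) (x y : I27 → F) : cr (σ g x) (σ g y) = σ' g (cr x y) := by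
  unfold cr
  rw [← map_add, h.hsh, h.hsh, h.hsh, map_sub, map_sub]

theorem PD.comp (h : PD σ σ') {G' : Type*} [Group G'] (f : G' →* G) :
    PD (MonoidHom.comp σ f) (MonoidHom.comp σ' f) :=
  ⟨fun g x y => h.htf (f g) x y, fun g x => h.hsh (f g) x, fun g x => h.hsh' (f g) x⟩

theorem mul_app (g h : G) (x : I27 → F) : σ (g * h) x = σ g (σ h x) := by rw [map_mul]; rfl

theorem one_app (x : I27 → F) : σ 1 x = x := by rw [map_one]; rfl

theorem inv_app (g : G) (x : I27 → F) : σ g⁻¹ (σ g x) = x := by rw [← mul_app, inv_mul_cancel, one_app]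

theorem app_inv (g : G) (x : I27 → F) : σ g (σ g⁻¹ x) = x := by rw [← mul_app, mul_inv_cancel, one_app]

theorem PD.perp_mem (h : PD σ σ') {M : Submodule F (I27 → F)} (hM : ∀ g, ∀ w ∈ M, σ' g w ∈ M) (g : G)
    {x : I27 → F} (hx : x ∈ perp M) : σ g x ∈ perp M := by
  intro m hm
  rw [← app_inv (σ := σ') g m, tf_comm, h.htf, tf_comm]
  exact hx _ (hM _ _ hm)

theorem PD.dual_inv (h : PD σ σ') : finrank F σ.dual.invariants ≤ finrank F σ'.invariants := by
  have hT : Function.Injective (tfB F) := by
    rw [← LinearMap.ker_eq_bot, eq_bot_iff]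
    intro x hx
    exact tf_nondeg fun y => LinearMap.congr_fun hx y
  have hS : Function.Surjective (tfB F) :=
    (LinearMap.injective_iff_surjective_of_finrank_eq_finrank
      (show finrank F (I27 → F) = finrank F (Dual F (I27 → F)) from (Subspace.dual_finrank_eq).symm)).1 hT
  let E : (I27 → F) ≃ₗ[F] Dual F (I27 → F) := LinearEquiv.ofBijective (tfB F) ⟨hT, hS⟩
  have hE : ∀ y x, E y x = tf y x := fun y x => rfl
  have hmem : ∀ f ∈ σ.dual.invariants, E.symm f ∈ σ'.invariants := by
    intro f hf
    rw [Representation.mem_invariants] at hf ⊢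
    intro g
    apply E.injective
    apply LinearMap.ext
    intro x
    rw [hE, ← app_inv (σ := σ) g x, tf_comm, h.htf, tf_comm, ← hE, E.apply_symm_apply, app_inv]
    have h1 := LinearMap.congr_fun (hf g) x
    rw [Representation.dual_apply] at h1
    exact h1
  let f : σ.dual.invariants →ₗ[F] σ'.invariants :=
    (E.symm.toLinearMap.domRestrict σ.dual.invariants).codRestrict σ'.invariants (fun m => hmem m m.2)
  have hf : Function.Injective f := by
    intro a b hab
    apply Subtype.ext
    exact E.symm.injective (congrArg Subtype.val hab)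
  exact LinearMap.finrank_le_finrank_of_injective hf

/-- Scott's lemma for a pair -/
theorem PD.scott (h : PD σ σ') {x y : G} (hgen : Subgroup.closure {x, y} = ⊤) :
    ev (σ x) 1 + ev (σ y) 1 + ev (σ (x * y)) 1 ≤ 27 + finrank F σ.invariants + finrank F σ'.invariants := by
  have h1 := Cfsg.Agent.H952.F4.Scott.scott σ hgen
  have h2 := h.dual_inv
  rw [finrank27] at h1
  omega

end PDs

end Cfsg.Agent.H905.E6T
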