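import Mathlib
import Cfsg.Agent.H905.E6T.Base

/-!
# S5927, characteristic 2: equivariant families of vectors (helper905)

* `io`, `ct_io`, `exists_io` : the embedding `A_m → A_n` on the first `m` points;
* `move` : transitivity of `A_n` on `k`-tuples, `k ≤ n - 2`;
* `Fam`, `Fam2`, `exists_fam`, `exists_fam2`, `fam_const`, `fam_sum`, `fam_rel` : families indexed by points or pairs;
* `par_zero` : cancellation in characteristic 2 by parity of codes.
-/

set_option autoImplicit false
set_option linter.unusedSectionVars false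
set_option linter.unusedSimpArgs false

namespace Cfsg.Agent.H905.E6T

open Cfsg Cfsg.Lie Module Equiv
open Cfsg.Agent.ChevalleyStructure.E6Min.Tables
open Cfsg.Agent.H952.F4 (ev es sh cr tf tr1 u0)
open Cfsg.Agent.H952.F4.Jord Cfsg.Agent.H163.E6

universe u

variable {F : Type u} [Field F]

/-! ### the alternating groups -/

/-- `A_m → A_n` on the first `m` points -/
noncomputable abbrev io {m n : ℕ} (h : m ≤ n) : ↥(alternatingGroup (Fin m)) →* ↥(alternatingGroup (Fin n)) :=
  Cfsg.Agent.H191.AltElts.embAlt h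

theorem io_coe {m n : ℕ} (h : m ≤ n) (g : ↥(alternatingGroup (Fin m))) : ((io h g : ↥(alternatingGroup (Fin n))) :
    Perm (Fin n)) = (g : Perm (Fin m)).extendDomain (Equiv.ofInjective (Fin.castLE h) (Fin.castLE_injective h)) := rfl

theorem ct_io {m n : ℕ} (h : m ≤ n) (g : ↥(alternatingGroup (Fin m))) :
    ((io h g : ↥(alternatingGroup (Fin n))) : Perm (Fin n)).cycleType = (g : Perm (Fin m)).cycleType := by
  rw [io_coe, Perm.cycleType_extendDomain]

theorem io_apply {m n : ℕ} (h : m ≤ n) (g : ↥(alternatingGroup (Fin m))) (i : Fin m) :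
    ((io h g : ↥(alternatingGroup (Fin n))) : Perm (Fin n)) (Fin.castLE h i) = Fin.castLE h ((g : Perm (Fin m)) i) := by
  rw [io_coe]
  exact Perm.extendDomain_apply_image _ _ i

theorem io_apply_ge {m n : ℕ} (h : m ≤ n) (g : ↥(alternatingGroup (Fin m))) (i : Fin n) (hi : m ≤ i.val) :
    ((io h g : ↥(alternatingGroup (Fin n))) : Perm (Fin n)) i = i := by
  rw [io_coe]
  apply Perm.extendDomain_apply_not_subtype
  rintro ⟨j, rfl⟩
  have := j.2
  simp at hi
  omega

theorem exists_io {m n : ℕ} (h : m ≤ n) (g : ↥(alternatingGroup (Fin n)))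
    (hg : ∀ i : Fin n, m ≤ i.val → (g : Perm (Fin n)) i = i) : ∃ g', io h g' = g := by
  have hp : ∀ x : Fin n, (g : Perm (Fin n)) x ∈ Set.range (Fin.castLE h) ↔ x ∈ Set.range (Fin.castLE h) := by
    have hr : ∀ x : Fin n, x ∈ Set.range (Fin.castLE h) ↔ x.val < m := by
      intro x
      rw [Fin.range_castLE]
      rfl
    intro x
    rw [hr, hr]
    constructor
    · intro h1
      by_contra h2
      rw [hg x (by omega)] at h1
      omega
    · intro h1
      by_contra h2
      have h3 := hg ((g : Perm (Fin n)) x) (by omega)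
      have h4 := (g : Perm (Fin n)).injective h3
      rw [h4] at h2
      omega
  set f : Fin m ≃ Set.range (Fin.castLE h) := Equiv.ofInjective (Fin.castLE h) (Fin.castLE_injective h) with hf
  set e : Perm (Fin m) := (f.trans ((g : Perm (Fin n)).subtypePerm hp)).trans f.symm with he
  have h1 : e.extendDomain f = g := by
    ext x
    by_cases hx : x ∈ Set.range (Fin.castLE h)
    · rw [Perm.extendDomain_apply_subtype e f hx, he]
      simp
    · rw [Perm.extendDomain_apply_not_subtype e f hx, hg]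
      rw [Fin.range_castLE] at hx
      exact Nat.le_of_not_lt hx
  refine ⟨⟨e, ?_⟩, Subtype.ext h1⟩
  rw [Perm.mem_alternatingGroup, ← Perm.sign_extendDomain e f, h1]
  exact Perm.mem_alternatingGroup.1 g.2

/-- transitivity on tuples -/
theorem move {n k : ℕ} (hn : k + 2 ≤ n) (x y : Fin k ↪ Fin n) :
    ∃ g : ↥(alternatingGroup (Fin n)), ∀ i, (g : Perm (Fin n)) (x i) = y i := by
  have h1 := alternatingGroup.isMultiplyPretransitive (Fin n)
  rw [Nat.card_eq_fintype_card, Fintype.card_fin] at h1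
  have h2 : MulAction.IsMultiplyPretransitive ↥(alternatingGroup (Fin n)) (Fin n) k :=
    MulAction.isMultiplyPretransitive_of_le (n := n - 2) (by omega)
      (by rw [Nat.card_eq_fintype_card, Fintype.card_fin]; omega)
  rw [MulAction.isMultiplyPretransitive_iff] at h2
  obtain ⟨g, hg⟩ := h2 x y
  exact ⟨g, fun i => DFunLike.congr_fun hg i⟩

theorem move1 {n : ℕ} (hn : 3 ≤ n) (a b : Fin n) : ∃ g : ↥(alternatingGroup (Fin n)), (g : Perm (Fin n)) a = b := by
  obtain ⟨g, hg⟩ := move (k := 1) hn ⟨fun _ => a, fun i j _ => Subsingleton.elim i j⟩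
    ⟨fun _ => b, fun i j _ => Subsingleton.elim i j⟩
  exact ⟨g, hg 0⟩

theorem inj_two {n : ℕ} {a b : Fin n} (h : a ≠ b) : Function.Injective ![a, b] := by
  intro i j hij
  fin_cases i <;> fin_cases j <;> simp_all

theorem inj_three {n : ℕ} {a b c : Fin n} (h1 : a ≠ b) (h2 : a ≠ c) (h3 : b ≠ c) : Function.Injective ![a, b, c] := by
  intro i j hij
  fin_cases i <;> fin_cases j <;> simp_all

theorem inj_four {n : ℕ} {a b c d : Fin n} (h1 : a ≠ b) (h2 : a ≠ c) (h3 : a ≠ d) (h4 : b ≠ c) (h5 : b ≠ d)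
    (h6 : c ≠ d) : Function.Injective ![a, b, c, d] := by
  intro i j hij
  fin_cases i <;> fin_cases j <;> simp_all

theorem move2 {n : ℕ} (hn : 4 ≤ n) {a b c d : Fin n} (hab : a ≠ b) (hcd : c ≠ d) :
    ∃ g : ↥(alternatingGroup (Fin n)), (g : Perm (Fin n)) a = c ∧ (g : Perm (Fin n)) b = d := by
  obtain ⟨g, hg⟩ := move (k := 2) hn ⟨![a, b], inj_two hab⟩ ⟨![c, d], inj_two hcd⟩
  exact ⟨g, hg 0, hg 1⟩

theorem move3 {n : ℕ} (hn : 5 ≤ n) {a b c a' b' c' : Fin n} (h1 : a ≠ b) (h2 : a ≠ c) (h3 : b ≠ c)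
    (h1' : a' ≠ b') (h2' : a' ≠ c') (h3' : b' ≠ c') :
    ∃ g : ↥(alternatingGroup (Fin n)), (g : Perm (Fin n)) a = a' ∧ (g : Perm (Fin n)) b = b' ∧
      (g : Perm (Fin n)) c = c' := by
  obtain ⟨g, hg⟩ := move (k := 3) hn ⟨![a, b, c], inj_three h1 h2 h3⟩ ⟨![a', b', c'], inj_three h1' h2' h3'⟩
  exact ⟨g, hg 0, hg 1, hg 2⟩

theorem move4 {n : ℕ} (hn : 6 ≤ n) {a b c d a' b' c' d' : Fin n} (h1 : a ≠ b) (h2 : a ≠ c) (h3 : a ≠ d) (h4 : b ≠ c)
    (h5 : b ≠ d) (h6 : c ≠ d) (h1' : a' ≠ b') (h2' : a' ≠ c') (h3' : a' ≠ d') (h4' : b' ≠ c')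
    (h5' : b' ≠ d') (h6' : c' ≠ d') :
    ∃ g : ↥(alternatingGroup (Fin n)), (g : Perm (Fin n)) a = a' ∧ (g : Perm (Fin n)) b = b' ∧
      (g : Perm (Fin n)) c = c' ∧ (g : Perm (Fin n)) d = d' := by
  obtain ⟨g, hg⟩ := move (k := 4) hn ⟨![a, b, c, d], inj_four h1 h2 h3 h4 h5 h6⟩
    ⟨![a', b', c', d'], inj_four h1' h2' h3' h4' h5' h6'⟩
  exact ⟨g, hg 0, hg 1, hg 2, hg 3⟩

/-- homomorphisms of `A_n` to commutative groups are trivial -/
theorem hom_eq_one {n : ℕ} (hn : 5 ≤ n) {C : Type*} [CommGroup C] (χ : ↥(alternatingGroup (Fin n)) →* C)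
    (g : ↥(alternatingGroup (Fin n))) : χ g = 1 := by
  have h1 : commutator ↥(alternatingGroup (Fin n)) = ⊤ :=
    commutator_alternatingGroup_eq_top (by rw [Nat.card_eq_fintype_card, Fintype.card_fin]; exact hn)
  have h2 : commutator ↥(alternatingGroup (Fin n)) ≤ χ.ker := Abelianization.commutator_subset_ker χ
  rw [h1] at h2
  exact h2 (Subgroup.mem_top g)

/-! ### cancellation in characteristic 2 -/

theorem par_aux {ι M : Type*} [AddCommGroup M] [Module F M] (code : ι → ℕ) (N : ℕ) (f : ι → M) (r : ℕ → M)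
    (hr : ∀ x, r (code x) = f x) (hN : ∀ x, code x < N) (L : List ι) :
    (L.map f).sum = ∑ k ∈ Finset.range N, ((L.countP (fun x => code x == k) : ℕ) : F) • r k := by
  induction L with
  | nil => simp
  | cons x L ih =>
    rw [List.map_cons, List.sum_cons, ih]
    have h1 : ∀ k ∈ Finset.range N, (((x :: L).countP (fun x => code x == k) : ℕ) : F) • r k =
        (if k = code x then r k else 0) + ((L.countP (fun x => code x == k) : ℕ) : F) • r k := by
      intro k _
      rw [List.countP_cons]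
      by_cases h : code x = k
      · simp [h, add_smul, add_comm]
      · have h' : ¬ k = code x := fun e => h e.symm
        simp [h, h']
    rw [Finset.sum_congr rfl h1, Finset.sum_add_distrib, Finset.sum_ite_eq', if_pos (Finset.mem_range.2 (hN x)), hr]

/-- a sum in which all codes `≠ 0` occur an even number of times is zero -/
theorem par_zero (h2 : (2 : F) = 0) {ι M : Type*} [AddCommGroup M] [Module F M] (code : ι → ℕ) (N : ℕ) (f : ι → M)
    (hf : ∀ x y, code x = code y → f x = f y) (h0 : ∀ x, code x = 0 → f x = 0) (hN : ∀ x, code x < N) (L : List ι)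
    (hL : ∀ k < N, k = 0 ∨ L.countP (fun x => code x == k) % 2 = 0) : (L.map f).sum = 0 := by
  classical
  let r : ℕ → M := fun k => if h : ∃ x, code x = k then f h.choose else 0
  have hr : ∀ x, r (code x) = f x := by
    intro x
    have h : ∃ y, code y = code x := ⟨x, rfl⟩
    simp only [r, dif_pos h]
    exact hf _ _ h.choose_spec
  rw [par_aux (F := F) code N f r hr hN L]
  apply Finset.sum_eq_zero
  intro k hk
  rcases hL k (Finset.mem_range.1 hk) with rfl | h
  · have : r 0 = 0 := by
      by_cases h : ∃ x, code x = 0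
      · simp only [r, dif_pos h]
        exact h0 _ h.choose_spec
      · simp only [r, dif_neg h]
    rw [this, smul_zero]
  · obtain ⟨m, hm⟩ := Nat.dvd_of_mod_eq_zero h
    rw [hm, Nat.cast_mul, Nat.cast_ofNat, h2, zero_mul, zero_smul]

/-! ### families -/

section Families

variable {n : ℕ} (σ : Representation F ↥(alternatingGroup (Fin n)) (I27 → F))

/-- equivariant families of vectors -/
def Fam (v : Fin n → I27 → F) : Prop :=
  ∀ (g : ↥(alternatingGroup (Fin n))) (i : Fin n), σ g (v i) = v ((g : Perm (Fin n)) i)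

/-- equivariant families of vectors indexed by pairs, symmetric, zero on the diagonal -/
structure Fam2 (w : Fin n → Fin n → I27 → F) : Prop where
  act : ∀ (g : ↥(alternatingGroup (Fin n))) (i j : Fin n), σ g (w i j) = w ((g : Perm (Fin n)) i) ((g : Perm (Fin n)) j)
  comm : ∀ i j, w i j = w j i
  diag : ∀ i, w i i = 0

variable {σ}

theorem exists_fam (hn : 3 ≤ n) (k : Fin n) (x : I27 → F)
    (hx : ∀ g : ↥(alternatingGroup (Fin n)), (g : Perm (Fin n)) k = k → σ g x = x) : ∃ v, Fam σ v ∧ v k = x := by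
  choose t ht using fun i : Fin n => move1 hn k i
  have key : ∀ (g : ↥(alternatingGroup (Fin n))) (i : Fin n), (g : Perm (Fin n)) k = i → σ g x = σ (t i) x := by
    intro g i hg
    have h1 := hx ((t i)⁻¹ * g) (by
      rw [Subgroup.coe_mul, Perm.mul_apply, hg, Subgroup.coe_inv, Perm.inv_eq_iff_eq, ht])
    rw [mul_app] at h1
    rw [← app_inv (σ := σ) (t i) (σ g x), h1]
  refine ⟨fun i => σ (t i) x, ?_, ?_⟩
  · intro g i
    change σ g (σ (t i) x) = σ (t ((g : Perm (Fin n)) i)) x
    rw [← mul_app]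
    exact key _ _ (by rw [Subgroup.coe_mul, Perm.mul_apply, ht])
  · change σ (t k) x = x
    exact hx _ (ht k)

theorem exists_fam2 (hn : 4 ≤ n) {k l : Fin n} (hkl : k ≠ l) (x : I27 → F)
    (hx : ∀ g : ↥(alternatingGroup (Fin n)), ((g : Perm (Fin n)) k = k ∧ (g : Perm (Fin n)) l = l) ∨
      ((g : Perm (Fin n)) k = l ∧ (g : Perm (Fin n)) l = k) → σ g x = x) :
    ∃ w, Fam2 σ w ∧ w k l = x := by
  classical
  have hm : ∀ i j : Fin n, ∃ g : ↥(alternatingGroup (Fin n)), i ≠ j →
      (g : Perm (Fin n)) k = i ∧ (g : Perm (Fin n)) l = j := by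
    intro i j
    by_cases h : i = j
    · exact ⟨1, fun h' => absurd h h'⟩
    · obtain ⟨g, hg⟩ := move2 hn hkl h
      exact ⟨g, fun _ => hg⟩
  choose t ht using hm
  have key : ∀ (g : ↥(alternatingGroup (Fin n))) (i j : Fin n), i ≠ j → ((g : Perm (Fin n)) k = i ∧
      (g : Perm (Fin n)) l = j) ∨ ((g : Perm (Fin n)) k = j ∧ (g : Perm (Fin n)) l = i) → σ g x = σ (t i j) x := by
    intro g i j hij hg
    have h1 := hx ((t i j)⁻¹ * g) (by
      rw [Subgroup.coe_mul, Perm.mul_apply, Perm.mul_apply, Subgroup.coe_inv]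
      rcases hg with hg | hg
      · left
        rw [hg.1, hg.2, Perm.inv_eq_iff_eq, Perm.inv_eq_iff_eq]
        exact ⟨(ht i j hij).1.symm, (ht i j hij).2.symm⟩
      · right
        rw [hg.1, hg.2, Perm.inv_eq_iff_eq, Perm.inv_eq_iff_eq]
        exact ⟨(ht i j hij).2.symm, (ht i j hij).1.symm⟩)
    rw [mul_app] at h1
    rw [← app_inv (σ := σ) (t i j) (σ g x), h1]
  refine ⟨fun i j => if i = j then 0 else σ (t i j) x, ⟨?_, ?_, ?_⟩, ?_⟩
  · intro g i j
    by_cases hij : i = j
    · simp [hij]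
    · have hij' : (g : Perm (Fin n)) i ≠ (g : Perm (Fin n)) j := fun h => hij ((g : Perm (Fin n)).injective h)
      simp only [if_neg hij, if_neg hij']
      rw [← mul_app]
      exact key _ _ _ hij' (Or.inl (by
        rw [Subgroup.coe_mul, Perm.mul_apply, Perm.mul_apply, (ht i j hij).1, (ht i j hij).2]
        exact ⟨rfl, rfl⟩))
  · intro i j
    by_cases hij : i = j
    · simp [hij]
    · have hji : j ≠ i := fun h => hij h.symm
      simp only [if_neg hij, if_neg hji]
      exact key _ _ _ hji (Or.inr (ht i j hij))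
  · intro i
    simp
  · simp only [if_neg hkl]
    exact hx _ (Or.inl (ht k l hkl))

theorem mem_inv {x : I27 → F} (hinv : σ.invariants = ⊥) (hx : ∀ g, σ g x = x) : x = 0 := by
  have h1 : x ∈ σ.invariants := (Representation.mem_invariants σ x).2 hx
  rw [hinv] at h1
  exact (Submodule.mem_bot F).1 h1

theorem fam_const (hn : 4 ≤ n) (hinv : σ.invariants = ⊥) {v : Fin n → I27 → F} (hv : Fam σ v) {a b : Fin n}
    (hab : a ≠ b) (h : v a = v b) (i : Fin n) : v i = 0 := by
  have h1 : ∀ i j, v i = v j := by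
    intro i j
    by_cases hij : i = j
    · rw [hij]
    · obtain ⟨g, h1, h2⟩ := move2 hn hab hij
      rw [← h1, ← h2, ← hv, ← hv, h]
  exact mem_inv hinv fun g => by rw [hv]; exact h1 _ _

theorem fam_sum (hinv : σ.invariants = ⊥) {v : Fin n → I27 → F} (hv : Fam σ v) : ∑ i, v i = 0 := by
  apply mem_inv hinv
  intro g
  rw [map_sum]
  simp_rw [hv g]
  exact Equiv.sum_comp (g : Perm (Fin n)) v

theorem fam2_star (hn : 3 ≤ n) {w : Fin n → Fin n → I27 → F} (hw : Fam2 σ w)
    (hinv : ∀ x : I27 → F, (∀ g : ↥(alternatingGroup (Fin n)), (g : Perm (Fin n)) ⟨0, by omega⟩ = ⟨0, by omega⟩ → σ g x = x) →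
      x = 0) (i : Fin n) : ∑ j, w i j = 0 := by
  have h1 : ∑ j, w ⟨0, by omega⟩ j = 0 := by
    apply hinv
    intro g hg
    rw [map_sum]
    simp_rw [hw.act g, hg]
    exact Equiv.sum_comp (g : Perm (Fin n)) (w ⟨0, by omega⟩)
  obtain ⟨g, hg⟩ := move1 hn ⟨0, by omega⟩ i
  have h2 := congrArg (σ g) h1
  rw [map_sum, map_zero] at h2
  simp_rw [hw.act g, hg] at h2
  rw [← h2]
  exact (Equiv.sum_comp (g : Perm (Fin n)) (w i)).symm

/-- the sum over all unordered pairs -/
theorem sum_lt {M : Type*} [AddCommMonoid M] (w : Fin n → Fin n → M) (hw : ∀ i j, w i j = w j i) (g : Perm (Fin n)) :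
    ∑ p ∈ Finset.univ.filter (fun p : Fin n × Fin n => p.1 < p.2), w (g p.1) (g p.2) =
      ∑ p ∈ Finset.univ.filter (fun p : Fin n × Fin n => p.1 < p.2), w p.1 p.2 := by
  classical
  let s : Perm (Fin n) → Fin n × Fin n → Fin n × Fin n := fun g p =>
    if g p.1 < g p.2 then (g p.1, g p.2) else (g p.2, g p.1)
  have hs : ∀ (g : Perm (Fin n)) (p : Fin n × Fin n), p.1 < p.2 → (s g p).1 < (s g p).2 := by
    intro g p hp
    simp only [s]
    split_ifs with h
    · exact h
    · have h1 : g p.1 ≠ g p.2 := fun h' => (ne_of_lt hp) (g.injective h')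
      change g p.2 < g p.1
      exact lt_of_le_of_ne (not_lt.1 h) h1.symm
  have hss : ∀ (g h : Perm (Fin n)) (p : Fin n × Fin n), p.1 < p.2 → h * g = 1 → s h (s g p) = p := by
    intro g h p hp hg
    have h1 : ∀ x, h (g x) = x := fun x => by rw [← Perm.mul_apply, hg, Perm.one_apply]
    simp only [s]
    split_ifs with h2 h3 h4
    · simp [h1]
    · simp only [h1] at h3
      exact absurd hp h3
    · simp only [h1] at h4
      exact absurd h4 (not_lt.2 hp.le)
    · simp [h1]
  have hsw : ∀ (g : Perm (Fin n)) (p : Fin n × Fin n), w (s g p).1 (s g p).2 = w (g p.1) (g p.2) := by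
    intro g p
    simp only [s]
    split_ifs
    · rfl
    · exact hw _ _
  refine Finset.sum_bij' (fun p _ => s g p) (fun p _ => s g⁻¹ p) ?_ ?_ ?_ ?_ ?_
  · intro p hp
    rw [Finset.mem_filter] at hp ⊢
    exact ⟨Finset.mem_univ _, hs g p hp.2⟩
  · intro p hp
    rw [Finset.mem_filter] at hp ⊢
    exact ⟨Finset.mem_univ _, hs g⁻¹ p hp.2⟩
  · intro p hp
    rw [Finset.mem_filter] at hp
    exact hss g g⁻¹ p hp.2 (inv_mul_cancel g)
  · intro p hp
    rw [Finset.mem_filter] at hp
    exact hss g⁻¹ g p hp.2 (mul_inv_cancel g)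
  · intro p _
    exact (hsw g p).symm

theorem fam2_all {w : Fin n → Fin n → I27 → F} (hw : Fam2 σ w) (hinv : σ.invariants = ⊥) :
    ∑ p ∈ Finset.univ.filter (fun p : Fin n × Fin n => p.1 < p.2), w p.1 p.2 = 0 := by
  apply mem_inv hinv
  intro g
  rw [map_sum]
  simp_rw [hw.act g]
  exact sum_lt w hw.comm g

/-- relations between the members of some families -/
theorem fam_rel (h2 : (2 : F) = 0) (hn : 5 ≤ n) (hinv : σ.invariants = ⊥) {κ : Type*} [Fintype κ]
    {v : κ → Fin n → I27 → F} (hv : ∀ k, Fam σ (v k)) {c : κ → Fin n → F} (hc : ∑ k, ∑ i, c k i • v k i = 0)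
    {a b : Fin n} (hab : a ≠ b) (i : Fin n) : ∑ k, (c k a + c k b) • v k i = 0 := by
  classical
  obtain ⟨m, hm0, hm1⟩ := move2 (n := n) (by omega) (a := ⟨0, by omega⟩) (b := ⟨1, by omega⟩) (c := a) (d := b)
    (by simp) hab
  set d : Fin n := (m : Perm (Fin n)) ⟨2, by omega⟩ with hd
  set e : Fin n := (m : Perm (Fin n)) ⟨3, by omega⟩ with he
  set f : Fin n := (m : Perm (Fin n)) ⟨4, by omega⟩ with hf
  have had : a ≠ d := by rw [← hm0, hd]; exact fun h => by simpa using (m : Perm (Fin n)).injective h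
  have hae : a ≠ e := by rw [← hm0, he]; exact fun h => by simpa using (m : Perm (Fin n)).injective h
  have haf : a ≠ f := by rw [← hm0, hf]; exact fun h => by simpa using (m : Perm (Fin n)).injective h
  have hbd : b ≠ d := by rw [← hm1, hd]; exact fun h => by simpa using (m : Perm (Fin n)).injective h
  have hbe : b ≠ e := by rw [← hm1, he]; exact fun h => by simpa using (m : Perm (Fin n)).injective h
  have hbf : b ≠ f := by rw [← hm1, hf]; exact fun h => by simpa using (m : Perm (Fin n)).injective h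
  have hde : d ≠ e := by rw [hd, he]; exact fun h => by simpa using (m : Perm (Fin n)).injective h
  have hdf : d ≠ f := by rw [hd, hf]; exact fun h => by simpa using (m : Perm (Fin n)).injective h
  have hef : e ≠ f := by rw [he, hf]; exact fun h => by simpa using (m : Perm (Fin n)).injective h
  clear_value d e f
  let t : ↥(alternatingGroup (Fin n)) := ⟨swap d e * swap e f, by
    rw [Perm.mem_alternatingGroup, Perm.sign_mul, Perm.sign_swap hde, Perm.sign_swap hef]; rfl⟩
  let g : ↥(alternatingGroup (Fin n)) := ⟨swap a b * swap d e, by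
    rw [Perm.mem_alternatingGroup, Perm.sign_mul, Perm.sign_swap hab, Perm.sign_swap hde]; rfl⟩
  have ht : ∀ x, (t : Perm (Fin n)) x = swap d e (swap e f x) := fun x => rfl
  have hg : ∀ x, (g : Perm (Fin n)) x = swap a b (swap d e x) := fun x => rfl
  have tn : ∀ x, x ≠ d → x ≠ e → x ≠ f → (t : Perm (Fin n)) x = x := by
    intro x h1 h2 h3
    rw [ht, swap_apply_of_ne_of_ne h2 h3, swap_apply_of_ne_of_ne h1 h2]
  have td : (t : Perm (Fin n)) d = e := by
    rw [ht, swap_apply_of_ne_of_ne hde hdf, swap_apply_left]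
  have te : (t : Perm (Fin n)) e = f := by
    rw [ht, swap_apply_left, swap_apply_of_ne_of_ne hdf.symm hef.symm]
  have tf' : (t : Perm (Fin n)) f = d := by
    rw [ht, swap_apply_right, swap_apply_right]
  have gn : ∀ x, x ≠ a → x ≠ b → x ≠ d → x ≠ e → (g : Perm (Fin n)) x = x := by
    intro x h1 h2 h3 h4
    rw [hg, swap_apply_of_ne_of_ne h3 h4, swap_apply_of_ne_of_ne h1 h2]
  have ga : (g : Perm (Fin n)) a = b := by
    rw [hg, swap_apply_of_ne_of_ne had hae, swap_apply_left]
  have gb : (g : Perm (Fin n)) b = a := by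
    rw [hg, swap_apply_of_ne_of_ne hbd hbe, swap_apply_right]
  have gd : (g : Perm (Fin n)) d = e := by
    rw [hg, swap_apply_left, swap_apply_of_ne_of_ne hae.symm hbe.symm]
  have ge : (g : Perm (Fin n)) e = d := by
    rw [hg, swap_apply_right, swap_apply_of_ne_of_ne had.symm hbd.symm]
  have gf : (g : Perm (Fin n)) f = f := gn f haf.symm hbf.symm hdf.symm hef.symm
  let T : (I27 → F) →ₗ[F] (I27 → F) := σ 1 + σ t + σ (t * t) + σ g + σ (g * t) + σ (g * t * t)
  have hT : ∀ (u : Fin n → I27 → F), Fam σ u → ∀ x, T (u x) = u x + u ((t : Perm (Fin n)) x) +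
      u ((t : Perm (Fin n)) ((t : Perm (Fin n)) x)) + u ((g : Perm (Fin n)) x) +
      u ((g : Perm (Fin n)) ((t : Perm (Fin n)) x)) +
      u ((g : Perm (Fin n)) ((t : Perm (Fin n)) ((t : Perm (Fin n)) x))) := by
    intro u hu x
    simp only [T, LinearMap.add_apply]
    rw [hu 1 x, hu t x, hu (t * t) x, hu g x, hu (g * t) x, hu (g * t * t) x]
    rfl
  have hz : ∀ y : I27 → F, y + y = 0 := fun y => add_self2 h2 y
  have hT0 : ∀ (u : Fin n → I27 → F), Fam σ u → ∀ x, T (u x) = if x = a ∨ x = b then u a + u b else 0 := by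
    intro u hu x
    rw [hT u hu]
    by_cases hxa : x = a
    · subst hxa
      rw [if_pos (Or.inl rfl), tn _ had hae haf, tn _ had hae haf, ga]
      have : u x + u x + u x + u b + u b + u b = (u x + u b) + (u x + u x) + (u b + u b) := by abel
      rw [this]; simp only [hz, add_zero]
    by_cases hxb : x = b
    · subst hxb
      rw [if_pos (Or.inr rfl), tn _ hbd hbe hbf, tn _ hbd hbe hbf, gb]
      have : u x + u x + u x + u a + u a + u a = (u a + u x) + (u x + u x) + (u a + u a) := by abel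
      rw [this]; simp only [hz, add_zero]
    rw [if_neg (by tauto)]
    by_cases hxd : x = d
    · subst hxd
      rw [td, te, gd, ge, gf]
      have : u x + u e + u f + u e + u x + u f = (u x + u x) + (u e + u e) + (u f + u f) := by abel
      rw [this]; simp only [hz, add_zero]
    by_cases hxe : x = e
    · subst hxe
      rw [te, tf', ge, gf, gd]
      have : u x + u f + u d + u d + u f + u x = (u x + u x) + (u f + u f) + (u d + u d) := by abel
      rw [this]; simp only [hz, add_zero]
    by_cases hxf : x = f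
    · subst hxf
      rw [tf', td, gf, gd, ge]
      have : u x + u d + u e + u x + u e + u d = (u x + u x) + (u e + u e) + (u d + u d) := by abel
      rw [this]; simp only [hz, add_zero]
    rw [tn x hxd hxe hxf, tn x hxd hxe hxf, gn x hxa hxb hxd hxe]
    have : u x + u x + u x + u x + u x + u x = (u x + u x) + (u x + u x) + (u x + u x) := by abel
    rw [this]; simp only [hz, add_zero]
  have h3 : ∑ k, (c k a + c k b) • (v k a + v k b) = 0 := by
    have h4 := congrArg T hc
    rw [map_sum, map_zero] at h4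
    rw [← h4]
    apply Finset.sum_congr rfl
    intro k _
    rw [map_sum]
    have h5 : ∀ x ∈ Finset.univ, T (c k x • v k x) = (if x = a then c k a • (v k a + v k b) else 0) +
        (if x = b then c k b • (v k a + v k b) else 0) := by
      intro x _
      rw [map_smul, hT0 (v k) (hv k)]
      by_cases hxa : x = a
      · subst hxa
        simp [hab]
      by_cases hxb : x = b
      · subst hxb
        simp [hxa]
      · simp [hxa, hxb]
    rw [Finset.sum_congr rfl h5, Finset.sum_add_distrib, Finset.sum_ite_eq', Finset.sum_ite_eq',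
      if_pos (Finset.mem_univ _), if_pos (Finset.mem_univ _), add_smul]
  have h4 : Fam σ (fun i => ∑ k, (c k a + c k b) • v k i) := by
    intro g i
    change σ g (∑ k, (c k a + c k b) • v k i) = ∑ k, (c k a + c k b) • v k ((g : Perm (Fin n)) i)
    rw [map_sum]
    apply Finset.sum_congr rfl
    intro k _
    rw [map_smul, hv k]
  refine fam_const (by omega) hinv h4 hab (eq_of_add2 h2 ?_) i
  rw [← h3, ← Finset.sum_add_distrib]
  apply Finset.sum_congr rfl
  intro k _
  rw [smul_add]

end Families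

end Cfsg.Agent.H905.E6T
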