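import Mathlib
import Cfsg.Agent.H905.E6T.SevenMain

/-!
# S5927, characteristic 2, `A₇` (helper905)

`fam_kill` : an equivariant family with vanishing products gives a totally singular 6-space.
`seven_kill` : `A₇` in characteristic 2, without fixed vectors and totally singular 6-spaces: contradiction.
-/

set_option autoImplicit false
set_option linter.unusedSectionVars false
set_option linter.unusedSimpArgs false
set_option linter.unusedTactic false
set_option linter.unusedVariables false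

namespace Cfsg.Agent.H905.E6T

open Cfsg Cfsg.Lie Module Equiv
open Cfsg.Agent.ChevalleyStructure.E6Min.Tables
open Cfsg.Agent.H952.F4 (ev es sh cr tf tr1 u0 GenT)
open Cfsg.Agent.H952.F4.Jord Cfsg.Agent.H163.E6

universe u

variable {F : Type u} [Field F]

/-- no totally singular stable subspace of dimension 6 -/
def NoSix {G : Type*} [Group G] (σ : Representation F G (I27 → F)) : Prop :=
  ∀ W : Submodule F (I27 → F), (∀ g, ∀ w ∈ W, σ g w ∈ W) → finrank F W = 6 → TS W → False

/-- restriction to `A_m` -/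
noncomputable def res {m n : ℕ} (h : m ≤ n) (σ : Representation F ↥(alternatingGroup (Fin n)) (I27 → F)) :
    Representation F ↥(alternatingGroup (Fin m)) (I27 → F) := MonoidHom.comp σ (io h)

theorem res_apply {m n : ℕ} (h : m ≤ n) (σ : Representation F ↥(alternatingGroup (Fin n)) (I27 → F))
    (g : ↥(alternatingGroup (Fin m))) : res h σ g = σ (io h g) := rfl

theorem PD.res {m n : ℕ} (h : m ≤ n) {σ σ' : Representation F ↥(alternatingGroup (Fin n)) (I27 → F)} (hP : PD σ σ') :
    PD (res h σ) (res h σ') := hP.comp (io h)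

theorem gen6c : GenT 6 {2, 2} {4, 2} {5} :=
  Cfsg.Agent.H952.F4.Gen.genT_of (n := 4) (c[0, 1] * c[2, 3]) (c[0, 1, 3, 4] * c[2, 5]) (by decide +kernel)
    (by decide +kernel)
    ![[], [], [3, 0, 2, 0, 3, 0, 2, 2, 0, 3, 0], [2, 0, 2, 2, 0, 2, 0, 3, 0, 2, 0],
      [0, 2, 2, 0, 2, 0, 3, 0, 2, 0, 2], [2, 2, 0, 2, 0, 3, 0, 2, 2, 0]]
    (by decide +kernel) (by decide +kernel) (by decide +kernel) (by decide +kernel)

theorem pow_of_ct {n : ℕ} (g : ↥(alternatingGroup (Fin n))) {s : Multiset ℕ}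
    (h : (g : Perm (Fin n)).cycleType = s) : g ^ s.lcm = 1 := by
  apply Subtype.ext
  have h1 := Perm.lcm_cycleType (g : Perm (Fin n))
  rw [h] at h1
  change (g : Perm (Fin n)) ^ s.lcm = 1
  rw [h1]
  exact pow_orderOf_eq_one _

section

variable {σ σ' : Representation F ↥(alternatingGroup (Fin 7)) (I27 → F)}

/-- the span of a non-zero family -/
theorem finrank_fam (h2 : (2 : F) = 0) (hinv : σ.invariants = ⊥) {v : Fin 7 → I27 → F} (hv : Fam σ v)
    (h0 : v 0 ≠ 0) : finrank F (Submodule.span F (Set.range v)) = 6 := by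
  have h1 := indep_two (κ := Unit) (v := fun _ => v) h2 hinv (fun _ => hv)
    (linearIndependent_unique_iff.2 h0)
  have h3 := finrank_span_eq_card h1
  rw [Fintype.card_prod, Fintype.card_unit, Fintype.card_fin] at h3
  have h4 : Submodule.span F (Set.range v) = Submodule.span F (Set.range fun p : Unit × Fin 6 => v p.2.succ) := by
    apply le_antisymm
    · rw [Submodule.span_le]
      rintro _ ⟨i, rfl⟩
      refine Fin.cases ?_ (fun i => ?_) i
      · have h5 := fam_sum hinv hv
        rw [Fin.sum_univ_succ, add_eq_zero_iff_eq_neg] at h5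
        change v 0 ∈ _
        rw [h5]
        exact Submodule.neg_mem _ (Submodule.sum_mem _ fun i _ => Submodule.subset_span ⟨((), i), rfl⟩)
      · exact Submodule.subset_span ⟨((), i), rfl⟩
    · rw [Submodule.span_le]
      rintro _ ⟨⟨k, i⟩, rfl⟩
      exact Submodule.subset_span ⟨i.succ, rfl⟩
  rw [h4, h3]

/-- consequences of vanishing products -/
theorem fam_sing (h2 : (2 : F) = 0) (hP : PD σ σ') (hinv : σ.invariants = ⊥) {v : Fin 7 → I27 → F} (hv : Fam σ v)
    (h0 : v 0 ≠ 0) (hcr : ∀ i j, cr (v i) (v j) = 0) :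
    (∀ i, cubicT (v i) = 0) ∧ (∀ i j, tf (sh (v i)) (v j) = 0) ∧ (∀ i, sh (sh (v i)) = 0) ∧
      ∀ i j, cr (sh (v i)) (sh (v j)) = 0 := by
  have hv0 : ∀ i, v i ≠ 0 := fun i h => h0 (fam_eq_zero (by norm_num) hv h 0)
  have key : ∀ i j, i ≠ j → cubicT (v i) = 0 ∧ tf (sh (v i)) (v j) = 0 := by
    intro i j hij
    have h1 := cr_sh_cr (v i) (v j)
    rw [hcr, cr_zero_right] at h1
    obtain ⟨k, hki, hkj⟩ : ∃ k : Fin 7, k ≠ i ∧ k ≠ j :=
      (show ∀ i j : Fin 7, ∃ k : Fin 7, k ≠ i ∧ k ≠ j by decide) i j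
    have h3 : ∑ _u : Unit, ∑ l, (if l = i then tf (sh (v i)) (v j) else if l = j then cubicT (v i) else 0) • v l = 0 := by
      rw [Fintype.sum_unique]
      rw [← Finset.sum_subset (Finset.subset_univ {i, j})]
      · rw [Finset.sum_pair hij, if_pos rfl, if_neg hij.symm, if_pos rfl, add_comm]
        exact h1.symm
      · intro l _ hl
        rw [Finset.mem_insert, Finset.mem_singleton, not_or] at hl
        rw [if_neg hl.1, if_neg hl.2, zero_smul]
    have h4 := fam_rel (v := fun _ : Unit => v) h2 (by norm_num) hinv (fun _ => hv) h3 (a := j) (b := k) hkj.symm j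
    have h5 := fam_rel (v := fun _ : Unit => v) h2 (by norm_num) hinv (fun _ => hv) h3 (a := i) (b := k) hki.symm j
    rw [Fintype.sum_unique, if_neg hij.symm, if_pos rfl, if_neg hki, if_neg hkj, add_zero] at h4
    rw [Fintype.sum_unique, if_pos rfl, if_neg hki, if_neg hkj, add_zero] at h5
    exact ⟨(smul_eq_zero.1 h4).resolve_right (hv0 j), (smul_eq_zero.1 h5).resolve_right (hv0 j)⟩
  have hN : ∀ i, cubicT (v i) = 0 := by
    intro i
    obtain ⟨k, hk⟩ : ∃ k : Fin 7, i ≠ k := (show ∀ i : Fin 7, ∃ k : Fin 7, i ≠ k by decide) i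
    exact (key i k hk).1
  have hT : ∀ i j, tf (sh (v i)) (v j) = 0 := by
    intro i j
    by_cases hij : i = j
    · rw [← hij, tf_sh_self, hN, mul_zero]
    · exact (key i j hij).2
  refine ⟨hN, hT, fun i => by rw [sh_sh, hN, zero_smul], ?_⟩
  intro i j
  have h1 := sh_cr (v i) (v j)
  rw [hcr, sh_zero, zero_add, hT, tf_comm (v i), hT, zero_smul, zero_smul, add_zero] at h1
  exact h1

theorem fam_kill (h2 : (2 : F) = 0) (hP : PD σ σ') (hinv : σ.invariants = ⊥) (hinv' : σ'.invariants = ⊥)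
    (h6 : NoSix σ) (h6' : NoSix σ') {v : Fin 7 → I27 → F} (hv : Fam σ v)
    (h0 : v 0 ≠ 0) (hcr : ∀ i j, cr (v i) (v j) = 0) : False := by
  obtain ⟨hN, hT, h3, h4⟩ := fam_sing h2 hP hinv hv h0 hcr
  have hsh : Fam σ' (fun i => sh (v i)) := fun g i => by rw [← hP.hsh, hv]
  by_cases hs : sh (v 0) = 0
  · have hs' : ∀ i, sh (v i) = 0 := fun i => fam_eq_zero (by norm_num) hsh hs i
    exact h6 (Submodule.span F (Set.range v)) (span_stable fun g i => ⟨_, hv g i⟩)
      (finrank_fam h2 hinv hv h0) (ts_span hs' hcr)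
  · exact h6' (Submodule.span F (Set.range fun i => sh (v i))) (span_stable fun g i => ⟨_, hsh g i⟩)
      (finrank_fam h2 hinv' hsh hs) (ts_span h3 h4)

theorem seven_kill_aux (h2 : (2 : F) = 0) (hP : PD σ σ') (hinv : σ.invariants = ⊥) (hinv' : σ'.invariants = ⊥)
    (h6 : NoSix σ) (h6' : NoSix σ')
    (ha : 2 ≤ finrank F (res (show 6 ≤ 7 by norm_num) σ).invariants) : False := by
  obtain ⟨f, hf⟩ : ∃ f : Fin 2 → (res (show 6 ≤ 7 by norm_num) σ).invariants, LinearIndependent F f :=
    exists_linearIndependent_of_le_finrank ha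
  have hx : ∀ k, ∀ g : ↥(alternatingGroup (Fin 7)), (g : Perm (Fin 7)) 6 = 6 → σ g (f k : I27 → F) = f k := by
    intro k g hg
    obtain ⟨g', hg'⟩ := exists_io (show 6 ≤ 7 by norm_num) g (by
      intro i hi
      obtain rfl : i = 6 := Fin.ext (by have := i.2; change i.val = 6; omega)
      exact hg)
    have h1 := (Representation.mem_invariants (res (show 6 ≤ 7 by norm_num) σ) (f k : I27 → F)).1 (f k).2 g'
    rw [← hg']
    exact h1
  choose v hv hv6 using fun k => exists_fam (n := 7) (by norm_num) 6 (f k : I27 → F) (hx k)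
  obtain ⟨g, hg⟩ := move1 (n := 7) (by norm_num) 6 0
  have hi : LinearIndependent F (fun k => v k 0) := by
    have h1 : LinearIndependent F (fun k => (f k : I27 → F)) := hf.map' (Submodule.subtype _) (Submodule.ker_subtype _)
    have h3 : Function.Injective (σ g) := fun a b hab => by rw [← inv_app (σ := σ) g a, hab, inv_app]
    have h4 := h1.map' (σ g) (LinearMap.ker_eq_bot.2 h3)
    have h5 : (fun k => v k 0) = (σ g) ∘ (fun k => (f k : I27 → F)) := by
      funext k
      rw [Function.comp_apply, ← hv6 k, hv, hg]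
    rw [h5]
    exact h4
  have hcr := seven_main h2 hP hinv hinv' hv hi
  exact fam_kill h2 hP hinv hinv' h6 h6' (hv 0) (hi.ne_zero 0) hcr

/-- `A₇` in characteristic 2 -/
theorem seven_kill (h2 : (2 : F) = 0) (hP : PD σ σ') (hinv : σ.invariants = ⊥) (hinv' : σ'.invariants = ⊥)
    (h6 : NoSix σ) (h6' : NoSix σ') (h15 : ∀ g, g * g = 1 → 15 ≤ ev (σ g) 1) (h8 : ∀ g, g ^ 4 = 1 → 8 ≤ ev (σ g) 1)
    (h5 : ∀ g : ↥(alternatingGroup (Fin 7)), (g : Perm (Fin 7)).cycleType = {5} → 7 ≤ ev (σ g) 1) : False := by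
  obtain ⟨x, y, hgen, hx, hy, hxy⟩ := gen6c
  have h1 := (hP.res (show 6 ≤ 7 by norm_num)).scott hgen
  have h3 := h15 (io (show 6 ≤ 7 by norm_num) x) (by
    rw [← map_mul]
    have := pow_of_ct x hx
    rw [show ({2, 2} : Multiset ℕ).lcm = 2 by decide, pow_two] at this
    rw [this, map_one])
  have h4 := h8 (io (show 6 ≤ 7 by norm_num) y) (by
    rw [← map_pow]
    have := pow_of_ct y hy
    rw [show ({4, 2} : Multiset ℕ).lcm = 4 by decide] at this
    rw [this, map_one])
  have h7 := h5 (io (show 6 ≤ 7 by norm_num) (x * y)) (by rw [ct_io]; exact hxy)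
  rw [res_apply, res_apply, res_apply] at h1
  rcases le_or_gt 2 (finrank F (res (show 6 ≤ 7 by norm_num) σ).invariants) with h | h
  · exact seven_kill_aux h2 hP hinv hinv' h6 h6' h
  · exact seven_kill_aux h2 hP.symm hinv' hinv h6' h6 (by omega)

end

end Cfsg.Agent.H905.E6T
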