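import Mathlib
import Cfsg.Agent.H905.E6T.SevenKill

/-!
# S5927, characteristic 2, `A₈`: the family of vectors indexed by pairs (helper905)

`NoPt σ` : the stabilizer of a point has no fixed vectors. Under this assumption for both modules there is (after a possible
exchange of the modules) a family `w i j` of singular vectors with `cr (w i j) (w i k) = 0`, and a 4-cycle does not vanish.
-/

set_option autoImplicit false
set_option linter.unusedSectionVars false
set_option linter.unusedSimpArgs false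
set_option linter.unusedTactic false
set_option linter.unusedVariables false

namespace Cfsg.Agent.H905.E6T

open Cfsg Cfsg.Lie Module Equiv
open Cfsg.Agent.ChevalleyStructure.E6Min.Tables
open Cfsg.Agent.H952.F4 (ev es sh cr tf tr1 u0 GenT)
open Cfsg.Agent.H952.F4.Jord Cfsg.Agent.H163.E6

universe u

variable {F : Type u} [Field F]

/-- the stabilizer of the point `k` has no fixed vectors -/
def NoPt (k : Fin 8) (σ : Representation F ↥(alternatingGroup (Fin 8)) (I27 → F)) : Prop :=
  ∀ x : I27 → F, (∀ g : ↥(alternatingGroup (Fin 8)), (g : Perm (Fin 8)) k = k → σ g x = x) → x = 0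

section

variable {σ σ' : Representation F ↥(alternatingGroup (Fin 8)) (I27 → F)}

theorem NoPt.move {k : Fin 8} (h : NoPt k σ) (l : Fin 8) : NoPt l σ := by
  intro x hx
  obtain ⟨t, ht⟩ := move1 (n := 8) (by norm_num) l k
  have h1 : σ t x = 0 := by
    apply h
    intro g hg
    have h2 := hx (t⁻¹ * g * t) (by
      rw [Subgroup.coe_mul, Subgroup.coe_mul, Perm.mul_apply, Perm.mul_apply, ht, hg, Subgroup.coe_inv,
        Perm.inv_eq_iff_eq, ht])
    rw [mul_app, mul_app] at h2
    rw [← app_inv (σ := σ) t (σ g (σ t x)), h2]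
  rw [← inv_app (σ := σ) t x, h1, map_zero]

theorem NoPt.inv {k : Fin 8} (h : NoPt k σ) : σ.invariants = ⊥ := by
  rw [eq_bot_iff]
  intro x hx
  rw [Representation.mem_invariants] at hx
  exact (Submodule.mem_bot F).2 (h x fun g _ => hx g)

/-- the invariants of `A₇` -/
theorem NoPt.res {k : Fin 8} (h : NoPt k σ) : (res (show 7 ≤ 8 by norm_num) σ).invariants = ⊥ := by
  rw [eq_bot_iff]
  intro x hx
  rw [Representation.mem_invariants] at hx
  refine (Submodule.mem_bot F).2 (h.move 7 x fun g hg => ?_)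
  obtain ⟨g', hg'⟩ := exists_io (show 7 ≤ 8 by norm_num) g (by
    intro i hi
    obtain rfl : i = 7 := Fin.ext (by have := i.2; change i.val = 7; omega)
    exact hg)
  rw [← hg']
  exact hx g'

theorem star8 {k : Fin 8} (h : NoPt k σ) {w : Fin 8 → Fin 8 → I27 → F} (hw : Fam2 σ w) (i : Fin 8) :
    ∑ j, w i j = 0 :=
  fam2_star (n := 8) (by norm_num) hw (h.move 0) i

theorem star_sign {n : ℕ} (k : Fin (n + 2)) (hk : k ≠ 0) : swap 0 1 * swap 0 k ∈ alternatingGroup (Fin (n + 2)) := by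
  rw [Perm.mem_alternatingGroup, Perm.sign_mul, Perm.sign_swap (by simp), Perm.sign_swap hk.symm]
  rfl

/-- fixed vectors can be recognized on generators -/
theorem fixed_of_star {n : ℕ} {ρ : Representation F ↥(alternatingGroup (Fin (n + 2))) (I27 → F)} {v : I27 → F}
    (h : ∀ (k : Fin (n + 2)) (hk : k ≠ 0), ρ ⟨swap 0 1 * swap 0 k, star_sign k hk⟩ v = v)
    (g : ↥(alternatingGroup (Fin (n + 2)))) : ρ g v = v := by
  let S : Subgroup ↥(alternatingGroup (Fin (n + 2))) :=
    { carrier := {g | ρ g v = v}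
      mul_mem' := by
        intro a b ha hb
        change ρ (a * b) v = v
        rw [mul_app, show ρ b v = v from hb, show ρ a v = v from ha]
      one_mem' := one_app v
      inv_mem' := by
        intro a ha
        change ρ a⁻¹ v = v
        conv_lhs => rw [← show ρ a v = v from ha]
        rw [inv_app] }
  have h1 : (g : Perm (Fin (n + 2))) ∈ S.map (alternatingGroup (Fin (n + 2))).subtype := by
    refine Cfsg.Agent.H952.F4.Gen.mem_of_star _ ?_ ?_ g.2
    · rintro _ ⟨a, -, rfl⟩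
      exact a.2
    · intro k hk
      exact ⟨⟨_, star_sign k hk⟩, h k hk, rfl⟩
  obtain ⟨a, ha, hag⟩ := h1
  obtain rfl : a = g := Subtype.ext hag
  exact ha

/-- if a 4-cycle vanishes the triangles vanish -/
theorem tri_of_Z (h2 : (2 : F) = 0) (hinv : σ.invariants = ⊥) {w : Fin 8 → Fin 8 → I27 → F} (hw : Fam2 σ w)
    (hZ : Z w 0 1 2 3 = 0) {a b c : Fin 8} (hab : a ≠ b) (hac : a ≠ c) (hbc : b ≠ c) : w a b + w a c + w b c = 0 := by
  have h3 : ∀ k : Fin 8, k ≠ 0 → k ≠ 1 → k ≠ 2 → w k 0 + w k 2 + w 0 2 = w 0 1 + w 0 2 + w 1 2 := by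
    intro k h0 h1 h3
    have h := Z_zero (n := 8) (by norm_num) hw hZ (by decide) (by decide) (by decide) (by decide) (by decide)
      (by decide) (show (0 : Fin 8) ≠ 2 by decide) (show (0 : Fin 8) ≠ 1 by decide) h0.symm
      (show (2 : Fin 8) ≠ 1 by decide) h3.symm h1.symm
    rw [Z, add_assoc (w 0 1 + w 2 1)] at h
    have h7 := eq_of_add2 h2 h
    rw [hw.comm k 0, hw.comm k 2, ← h7, hw.comm 2 1]
    abel
  have h4 : w 0 1 + w 0 2 + w 1 2 = 0 := by
    apply mem_inv hinv
    refine fixed_of_star (n := 6) ?_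
    intro k hk
    rw [map_add, map_add, hw.act, hw.act, hw.act]
    change w ((swap 0 1 * swap 0 k : Perm (Fin 8)) 0) ((swap 0 1 * swap 0 k : Perm (Fin 8)) 1) +
      w ((swap 0 1 * swap 0 k : Perm (Fin 8)) 0) ((swap 0 1 * swap 0 k : Perm (Fin 8)) 2) +
      w ((swap 0 1 * swap 0 k : Perm (Fin 8)) 1) ((swap 0 1 * swap 0 k : Perm (Fin 8)) 2) = _
    by_cases h1 : k = 1
    · subst h1
      rw [swap_mul_self]
      rfl
    by_cases h3' : k = 2
    · subst h3'
      rw [show (swap 0 1 * swap 0 2 : Perm (Fin 8)) 0 = 2 by decide, show (swap 0 1 * swap 0 2 : Perm (Fin 8)) 1 = 0 by decide,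
        show (swap 0 1 * swap 0 2 : Perm (Fin 8)) 2 = 1 by decide, hw.comm 2 0, hw.comm 2 1]
      abel
    have h5 : ∀ k : Fin 8, k ≠ 0 → k ≠ 1 → k ≠ 2 → (swap 0 1 * swap 0 k : Perm (Fin 8)) 0 = k ∧
        (swap 0 1 * swap 0 k : Perm (Fin 8)) 1 = 0 ∧ (swap 0 1 * swap 0 k : Perm (Fin 8)) 2 = 2 := by decide
    obtain ⟨e0, e1, e2⟩ := h5 k hk h1 h3'
    rw [e0, e1, e2]
    exact h3 k hk h1 h3'
  obtain ⟨g, g0, g1, g2⟩ := move3 (n := 8) (by norm_num) (a := 0) (b := 1) (c := 2) (by decide) (by decide)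
    (by decide) hab hac hbc
  have h5 := congrArg (σ g) h4
  rw [map_add, map_add, hw.act, hw.act, hw.act, g0, g1, g2, map_zero] at h5
  exact h5

/-- a pair family with vanishing triangles spans a totally singular 6-space -/
theorem tri_kill (h2 : (2 : F) = 0) (hpt : NoPt 7 σ) (h6 : NoSix σ) {w : Fin 8 → Fin 8 → I27 → F} (hw : Fam2 σ w)
    (h0 : w 0 7 ≠ 0) (htri : ∀ {a b c : Fin 8}, a ≠ b → a ≠ c → b ≠ c → w a b + w a c + w b c = 0)
    (hsh : ∀ i j, sh (w i j) = 0) (hcr : ∀ i j k, cr (w i j) (w i k) = 0) : False := by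
  let v : Fin 7 → I27 → F := fun i => w (Fin.castLE (show 7 ≤ 8 by norm_num) i) 7
  have hv : Fam (res (show 7 ≤ 8 by norm_num) σ) v := by
    intro g i
    change σ (io _ g) (w _ 7) = w _ 7
    rw [hw.act, io_apply, io_apply_ge _ g 7 (by decide)]
  have hdim := finrank_fam h2 hpt.res hv h0
  have hspan : Submodule.span F (Set.range v) = Submodule.span F (Set.range fun p : Fin 8 × Fin 8 => w p.1 p.2) := by
    apply le_antisymm
    · rw [Submodule.span_le]
      rintro _ ⟨i, rfl⟩
      exact Submodule.subset_span ⟨(_, 7), rfl⟩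
    · have h7 : ∀ i : Fin 8, w i 7 ∈ Submodule.span F (Set.range v) := by
        intro i
        by_cases hi : i = 7
        · rw [hi, hw.diag]; exact Submodule.zero_mem _
        · exact Submodule.subset_span ⟨⟨i.val, by
            have := i.2
            have h8 : i.val ≠ 7 := fun h => hi (Fin.ext h)
            omega⟩, rfl⟩
      rw [Submodule.span_le]
      rintro _ ⟨⟨i, j⟩, rfl⟩
      change w i j ∈ Submodule.span F (Set.range v)
      by_cases hij : i = j
      · rw [hij, hw.diag]; exact Submodule.zero_mem _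
      by_cases hi : i = 7
      · rw [hi, hw.comm]; exact h7 j
      by_cases hj : j = 7
      · rw [hj]; exact h7 i
      have h8 := htri hij hi hj
      rw [add_assoc] at h8
      rw [eq_of_add2 h2 h8]
      exact Submodule.add_mem _ (h7 i) (h7 j)
  have hcr' : ∀ p q : Fin 8 × Fin 8, cr (w p.1 p.2) (w q.1 q.2) = 0 := by
    rintro ⟨i, j⟩ ⟨k, l⟩
    change cr (w i j) (w k l) = 0
    by_cases hik : i = k
    · rw [hik]; exact hcr _ _ _
    by_cases hil : i = l
    · rw [hil, hw.comm k l]; exact hcr _ _ _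
    by_cases hkl : k = l
    · rw [hkl, hw.diag, cr_zero_right]
    have h8 := htri hik hil hkl
    rw [add_comm] at h8
    rw [eq_of_add2 h2 h8, cr_add_right, hcr, hcr, add_zero]
  rw [hspan] at hdim
  exact h6 _ (span_stable fun g p => ⟨((g : Perm (Fin 8)) p.1, (g : Perm (Fin 8)) p.2), hw.act g p.1 p.2⟩) hdim
    (ts_span (fun p => hsh p.1 p.2) hcr')

/-- the properties of the family of pairs -/
structure Pairs (σ σ' : Representation F ↥(alternatingGroup (Fin 8)) (I27 → F)) (w : Fin 8 → Fin 8 → I27 → F) : Prop where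
  fam : Fam2 σ w
  ne : w 0 7 ≠ 0
  adj : ∀ i j k, cr (w i j) (w i k) = 0
  tfa : ∀ i j k, tf (sh (w i j)) (w i k) = 0
  sing : ∀ i j, sh (sh (w i j)) = 0
  adj' : ∀ i j k, cr (sh (w i j)) (sh (w i k)) = 0

theorem exists_pairs (h2 : (2 : F) = 0) (hP : PD σ σ') (hpt : NoPt 7 σ) (hpt' : NoPt 7 σ')
    (ha : 2 ≤ finrank F (res (show 6 ≤ 8 by norm_num) σ).invariants) : ∃ w, Pairs σ σ' w := by
  set I := (res (show 6 ≤ 8 by norm_num) σ).invariants with hI
  have hmem : ∀ x : I27 → F, x ∈ I ↔ ∀ g : ↥(alternatingGroup (Fin 8)), (g : Perm (Fin 8)) 6 = 6 →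
      (g : Perm (Fin 8)) 7 = 7 → σ g x = x := by
    intro x
    rw [hI, Representation.mem_invariants]
    constructor
    · intro h g h6 h7
      obtain ⟨g', hg'⟩ := exists_io (show 6 ≤ 8 by norm_num) g (by
        intro i hi
        have h8 : i = 6 ∨ i = 7 := by
          have := i.2
          rcases (show i.val = 6 ∨ i.val = 7 by omega) with h | h
          · left; exact Fin.ext h
          · right; exact Fin.ext h
        rcases h8 with rfl | rfl
        · exact h6
        · exact h7)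
      rw [← hg']
      exact h g'
    · intro h g
      exact h (io _ g) (io_apply_ge _ g 6 (by decide)) (io_apply_ge _ g 7 (by decide))
  let s : ↥(alternatingGroup (Fin 8)) := ⟨swap 6 7 * swap 0 1, by
    rw [Perm.mem_alternatingGroup]; decide⟩
  have s6 : (s : Perm (Fin 8)) 6 = 7 := by decide
  have s7 : (s : Perm (Fin 8)) 7 = 6 := by decide
  have ss : s * s = 1 := by decide
  have hs : ∀ x ∈ I, σ s x ∈ I := by
    intro x hx
    rw [hmem] at hx ⊢
    intro g h6 h7
    have h3 := hx (s * g * s) (by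
      rw [Subgroup.coe_mul, Subgroup.coe_mul, Perm.mul_apply, Perm.mul_apply, s6, h7, s7]) (by
      rw [Subgroup.coe_mul, Subgroup.coe_mul, Perm.mul_apply, Perm.mul_apply, s7, h6, s6])
    rw [mul_app, mul_app] at h3
    have h4 := congrArg (σ s) h3
    rw [← mul_app (σ := σ) s s, ss, one_app] at h4
    exact h4
  -- a vector fixed by `s`
  obtain ⟨x, hxI, hx0, hxs⟩ : ∃ x ∈ I, x ≠ 0 ∧ σ s x = x := by
    obtain ⟨l, hl0⟩ : ∃ l : I, l ≠ 0 := by
      have h3 : 0 < finrank F I := by omega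
      have := Module.finrank_pos_iff_exists_ne_zero.1 h3
      exact this
    have hl0' : (l : I27 → F) ≠ 0 := fun h => hl0 (Subtype.ext h)
    by_cases h3 : σ s (l : I27 → F) = l
    · exact ⟨l, l.2, hl0', h3⟩
    · refine ⟨(l : I27 → F) + σ s l, I.add_mem l.2 (hs _ l.2), ?_, ?_⟩
      · intro h4
        exact h3 (eq_of_add2 h2 h4).symm
      · rw [map_add, ← mul_app, ss, one_app, add_comm]
  obtain ⟨m, hm⟩ : ∃ m : I, LinearIndependent F ![(⟨x, hxI⟩ : I), m] :=
    exists_linearIndependent_pair_of_one_lt_finrank (by omega) (fun h => hx0 (congrArg Subtype.val h))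
  obtain ⟨w, hw, hwx⟩ := exists_fam2 (n := 8) (σ := σ) (by norm_num) (show (6 : Fin 8) ≠ 7 by decide) x (by
    rintro g (⟨h6, h7⟩ | ⟨h6, h7⟩)
    · exact (hmem x).1 hxI g h6 h7
    · have h3 := (hmem x).1 hxI (s * g) (by
        rw [Subgroup.coe_mul, Perm.mul_apply, h6, s7]) (by
        rw [Subgroup.coe_mul, Perm.mul_apply, h7, s6])
      rw [mul_app] at h3
      have h4 := congrArg (σ s) h3
      rw [← mul_app (σ := σ) s s, ss, one_app, hxs] at h4
      exact h4)
  -- the two families for `A₇`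
  let v0 : Fin 7 → I27 → F := fun i => w (Fin.castLE (show 7 ≤ 8 by norm_num) i) 7
  have hv0 : Fam (res (show 7 ≤ 8 by norm_num) σ) v0 := by
    intro g i
    change σ (io _ g) (w _ 7) = w _ 7
    rw [hw.act, io_apply, io_apply_ge _ g 7 (by decide)]
  obtain ⟨v1, hv1, hv16⟩ := exists_fam (n := 7) (σ := res (show 7 ≤ 8 by norm_num) σ) (by norm_num) 6 (m : I27 → F) (by
    intro g hg
    rw [res_apply]
    refine (hmem m).1 m.2 _ ?_ (io_apply_ge _ g 7 (by decide))
    have := io_apply (show 7 ≤ 8 by norm_num) g 6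
    rw [hg] at this
    exact this)
  have hv06 : v0 6 = x := hwx
  obtain ⟨t, ht⟩ := move1 (n := 7) (by norm_num) 6 0
  have hi : LinearIndependent F (fun k : Fin 2 => (![v0, v1] : Fin 2 → Fin 7 → I27 → F) k 0) := by
    have h1 := hm.map' (Submodule.subtype _) (Submodule.ker_subtype _)
    have h3 : Function.Injective (res (show 7 ≤ 8 by norm_num) σ t) := fun a b hab => by
      rw [← inv_app (σ := res (show 7 ≤ 8 by norm_num) σ) t a, hab, inv_app]
    have h4 := h1.map' (res (show 7 ≤ 8 by norm_num) σ t) (LinearMap.ker_eq_bot.2 h3)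
    have h5 : (fun k : Fin 2 => (![v0, v1] : Fin 2 → Fin 7 → I27 → F) k 0) = (res (show 7 ≤ 8 by norm_num) σ t) ∘
        ((Submodule.subtype I) ∘ ![(⟨x, hxI⟩ : I), m]) := by
      funext k
      fin_cases k
      · change v0 0 = res (show 7 ≤ 8 by norm_num) σ t x
        rw [← hv06, hv0, ht]
      · change v1 0 = res (show 7 ≤ 8 by norm_num) σ t (m : I27 → F)
        rw [← hv16, hv1, ht]
    rw [h5]
    exact h4
  have hcr := seven_main h2 (hP.res (show 7 ≤ 8 by norm_num)) hpt.res hpt'.res (v := ![v0, v1])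
    (by
      intro k
      fin_cases k
      · exact hv0
      · exact hv1) hi
  have h00 : v0 0 ≠ 0 := hi.ne_zero 0
  obtain ⟨hN, hT, h3, h4⟩ := fam_sing h2 (hP.res (show 7 ≤ 8 by norm_num)) hpt.res hv0 h00 hcr
  -- everything for the point 7
  have hc : ∀ i : Fin 8, i ≠ 7 → ∃ i' : Fin 7, v0 i' = w i 7 := by
    intro i hi
    exact ⟨⟨i.val, by
      have := i.2
      have h8 : i.val ≠ 7 := fun h => hi (Fin.ext h)
      omega⟩, rfl⟩
  have r1 : ∀ j k : Fin 8, j ≠ 7 → k ≠ 7 → cr (w j 7) (w k 7) = 0 ∧ tf (sh (w j 7)) (w k 7) = 0 ∧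
      sh (sh (w j 7)) = 0 ∧ cr (sh (w j 7)) (sh (w k 7)) = 0 := by
    intro j k hj hk
    obtain ⟨j', hj'⟩ := hc j hj
    obtain ⟨k', hk'⟩ := hc k hk
    rw [← hj', ← hk']
    exact ⟨hcr j' k', hT j' k', h3 j', h4 j' k'⟩
  have r2 : ∀ i j k : Fin 8, i ≠ j → i ≠ k → cr (w i j) (w i k) = 0 ∧ tf (sh (w i j)) (w i k) = 0 ∧
      sh (sh (w i j)) = 0 ∧ cr (sh (w i j)) (sh (w i k)) = 0 := by
    intro i j k hij hik
    obtain ⟨g, hg⟩ := move1 (n := 8) (by norm_num) i 7
    have hj : (g : Perm (Fin 8)) j ≠ 7 := by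
      rw [← hg]; exact fun h => hij ((g : Perm (Fin 8)).injective h).symm
    have hk : (g : Perm (Fin 8)) k ≠ 7 := by
      rw [← hg]; exact fun h => hik ((g : Perm (Fin 8)).injective h).symm
    obtain ⟨a1, a2, a3, a4⟩ := r1 _ _ hj hk
    have e1 : σ g (w i j) = w ((g : Perm (Fin 8)) j) 7 := by rw [hw.act, hg, hw.comm]
    have e2 : σ g (w i k) = w ((g : Perm (Fin 8)) k) 7 := by rw [hw.act, hg, hw.comm]
    rw [← e1, ← e2] at a1 a2 a4
    rw [← e1] at a3
    rw [hP.hcr] at a1
    rw [hP.hsh, hP.symm.htf] at a2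
    rw [hP.hsh, hP.hsh'] at a3
    rw [hP.hsh, hP.hsh, hP.symm.hcr] at a4
    refine ⟨?_, a2, ?_, ?_⟩
    · rw [← inv_app (σ := σ') g (cr _ _), a1, map_zero]
    · rw [← inv_app (σ := σ) g (sh (sh _)), a3, map_zero]
    · rw [← inv_app (σ := σ) g (cr _ _), a4, map_zero]
  refine ⟨w, hw, ?_, ?_, ?_, ?_, ?_⟩
  · exact h00
  · intro i j k
    by_cases hij : i = j
    · rw [hij, hw.diag, cr_zero_left]
    by_cases hik : i = k
    · rw [← hik, hw.diag, cr_zero_right]
    exact (r2 i j k hij hik).1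
  · intro i j k
    by_cases hij : i = j
    · rw [hij, hw.diag, sh_zero, tf_zero_left]
    by_cases hik : i = k
    · rw [← hik, hw.diag, tf_zero_right]
    exact (r2 i j k hij hik).2.1
  · intro i j
    by_cases hij : i = j
    · rw [hij, hw.diag, sh_zero, sh_zero]
    exact (r2 i j j hij hij).2.2.1
  · intro i j k
    by_cases hij : i = j
    · rw [hij, hw.diag, sh_zero, cr_zero_left]
    by_cases hik : i = k
    · rw [← hik, hw.diag, sh_zero, cr_zero_right]
    exact (r2 i j k hij hik).2.2.2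

end

end Cfsg.Agent.H905.E6T
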