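import Mathlib
import Cfsg.Agent.H905.E6T.Eight

/-!
# S5927, characteristic 2, `A₈`: the pair vectors are singular (helper905)

`Pairs.sh0`, `Pairs.z_ne`, `Pairs.tri0` (the trilinear form vanishes), `Pairs.collapse` : the product `cr (w i j) (w k l)`
depends only on the set `{i, j, k, l}`.
-/

set_option autoImplicit false
set_option linter.unusedSectionVars false
set_option linter.unusedSimpArgs false
set_option linter.unusedTactic false
set_option linter.unusedVariables false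

namespace Cfsg.Agent.H905.E6T

open Cfsg Cfsg.Lie Module Equiv
open Cfsg.Agent.ChevalleyStructure.E6Min.Tables
open Cfsg.Agent.H952.F4 (ev es sh cr tf tr1 u0 GenT)
open Cfsg.Agent.H952.F4.Jord Cfsg.Agent.H163.E6

universe u

variable {F : Type u} [Field F]

/-- transitivity on lists of distinct points -/
theorem move_list {n : ℕ} {L L' : List (Fin n)} (h : L.Nodup) (h' : L'.Nodup) (hl : L.length = L'.length)
    (hn : L.length + 2 ≤ n) : ∃ g : ↥(alternatingGroup (Fin n)), L.map (g : Perm (Fin n)) = L' := by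
  obtain ⟨g, hg⟩ := move (k := L.length) hn ⟨L.get, List.nodup_iff_injective_get.1 h⟩
    ⟨fun i => L'.get (Fin.cast hl i), (List.nodup_iff_injective_get.1 h').comp (Fin.cast_injective hl)⟩
  refine ⟨g, List.ext_get (by rw [List.length_map, hl]) ?_⟩
  intro i h1 h2
  have h3 := hg ⟨i, by rw [List.length_map] at h1; exact h1⟩
  change (g : Perm (Fin n)) (L.get ⟨i, _⟩) = L'.get ⟨i, _⟩ at h3
  rw [← h3]
  simp

section

variable {σ σ' : Representation F ↥(alternatingGroup (Fin 8)) (I27 → F)} {w : Fin 8 → Fin 8 → I27 → F}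

/-- equality of a scalar function of four points -/
theorem scal4 {e : Fin 8 → Fin 8 → Fin 8 → Fin 8 → F}
    (he : ∀ (g : ↥(alternatingGroup (Fin 8))) (i j k l : Fin 8), e ((g : Perm (Fin 8)) i) ((g : Perm (Fin 8)) j)
      ((g : Perm (Fin 8)) k) ((g : Perm (Fin 8)) l) = e i j k l) {i j k l : Fin 8} (h : [i, j, k, l].Nodup) :
    e i j k l = e 0 1 2 3 := by
  obtain ⟨g, hg⟩ := move_list (L := [0, 1, 2, 3]) (by decide) h rfl (by simp)
  simp only [List.map_cons, List.map_nil, List.cons.injEq, and_true] at hg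
  rw [← hg.1, ← hg.2.1, ← hg.2.2.1, ← hg.2.2.2, he]

theorem Pairs.tf_disj (h2 : (2 : F) = 0) (hP : PD σ σ') (hpt : NoPt 7 σ) (hp : Pairs σ σ' w) (i j k l : Fin 8) :
    tf (sh (w i j)) (w k l) = 0 := by
  have hz : ∀ y : F, y + y = 0 := fun y => by rw [← two_mul, h2, zero_mul]
  by_cases h1 : i = k
  · rw [← h1]; exact hp.tfa _ _ _
  by_cases h3 : i = l
  · rw [← h3, hp.fam.comm k i]; exact hp.tfa _ _ _
  by_cases h4 : j = k
  · rw [← h4, hp.fam.comm i j]; exact hp.tfa _ _ _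
  by_cases h5 : j = l
  · rw [← h5, hp.fam.comm i j, hp.fam.comm k j]; exact hp.tfa _ _ _
  by_cases h6 : i = j
  · rw [h6, hp.fam.diag, sh_zero, tf_zero_left]
  by_cases h7 : k = l
  · rw [h7, hp.fam.diag, tf_zero_right]
  have he : ∀ (g : ↥(alternatingGroup (Fin 8))) (i j k l : Fin 8),
      tf (sh (w ((g : Perm (Fin 8)) i) ((g : Perm (Fin 8)) j))) (w ((g : Perm (Fin 8)) k) ((g : Perm (Fin 8)) l)) =
        tf (sh (w i j)) (w k l) := by
    intro g i j k l
    rw [← hp.fam.act, ← hp.fam.act, hP.hsh, hP.symm.htf]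
  have key := fun {i j k l : Fin 8} (h : [i, j, k, l].Nodup) =>
    scal4 (e := fun i j k l => tf (sh (w i j)) (w k l)) he h
  have h8 := star_tf (star8 hpt hp.fam 2) (sh (w 0 1))
  rw [Fin.sum_univ_eight, hp.fam.comm 2 0, hp.tfa, hp.fam.comm 2 1, hp.fam.comm 0 1, hp.tfa, hp.fam.diag, tf_zero_right,
    hp.fam.comm 1 0, key (i := 0) (j := 1) (k := 2) (l := 4) (by decide), key (i := 0) (j := 1) (k := 2) (l := 5) (by decide),
    key (i := 0) (j := 1) (k := 2) (l := 6) (by decide), key (i := 0) (j := 1) (k := 2) (l := 7) (by decide)] at h8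
  rw [key (i := i) (j := j) (k := k) (l := l) (by simp; tauto)]
  change tf (sh (w 0 1)) (w 2 3) = 0
  have h9 : (0 : F) + 0 + 0 + tf (sh (w 0 1)) (w 2 3) + tf (sh (w 0 1)) (w 2 3) + tf (sh (w 0 1)) (w 2 3) +
      tf (sh (w 0 1)) (w 2 3) + tf (sh (w 0 1)) (w 2 3) = (tf (sh (w 0 1)) (w 2 3) + tf (sh (w 0 1)) (w 2 3)) +
      (tf (sh (w 0 1)) (w 2 3) + tf (sh (w 0 1)) (w 2 3)) + tf (sh (w 0 1)) (w 2 3) := by ring
  rw [h9] at h8
  simpa only [hz, zero_add] using h8

theorem finrank20 (h2 : (2 : F) = 0) (hw : Fam2 σ w) (hZ : Z w 0 1 2 3 ≠ 0) :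
    20 ≤ finrank F (Submodule.span F (Set.range fun p : Fin 8 × Fin 8 => w p.1 p.2)) := by
  have hli := indep h2 (by norm_num) good8 hw (z0 := 0) (z1 := 1) (z2 := 2) (z3 := 3) rfl rfl rfl rfl hZ
  have h1 := finrank_span_eq_card hli
  rw [card_BP8] at h1
  rw [← h1]
  apply Submodule.finrank_mono
  apply Submodule.span_mono
  rintro _ ⟨p, rfl⟩
  exact ⟨p.1, rfl⟩

/-- the pair vectors are singular -/
theorem Pairs.sh0 (h2 : (2 : F) = 0) (hP : PD σ σ') (hpt : NoPt 7 σ) (hpt' : NoPt 7 σ') (h6' : NoSix σ')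
    (hp : Pairs σ σ' w) (i j : Fin 8) : sh (w i j) = 0 := by
  have hy : Fam2 σ' (fun i j => sh (w i j)) :=
    ⟨fun g i j => by rw [← hP.hsh, hp.fam.act], fun i j => by rw [hp.fam.comm], fun i => by rw [hp.fam.diag, sh_zero]⟩
  by_contra hne
  have hij : i ≠ j := by
    rintro rfl
    exact hne (by rw [hp.fam.diag, sh_zero])
  have h0 : sh (w 0 7) ≠ 0 := by
    intro h
    obtain ⟨g, g0, g1⟩ := move2 (n := 8) (by norm_num) (a := 0) (b := 7) (by decide) hij
    apply hne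
    rw [← g0, ← g1, ← hp.fam.act, hP.hsh, h, map_zero]
  have htri : ∀ {a b c : Fin 8}, a ≠ b → a ≠ c → b ≠ c → sh (w a b) + sh (w a c) + sh (w b c) = 0 := by
    intro a b c hab hac hbc
    by_cases hZ : Z w 0 1 2 3 = 0
    · have h1 := eq_of_add2 h2 (tri_of_Z h2 hpt.inv hp.fam hZ hab hac hbc)
      rw [← h1, sh_add, hp.adj, add_zero]
      exact add_self2 h2 _
    · by_cases hZ' : Z (fun i j => sh (w i j)) 0 1 2 3 = 0
      · exact tri_of_Z h2 hpt'.inv hy hZ' hab hac hbc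
      · exfalso
        have h1 := finrank20 h2 hp.fam hZ
        have h3 := finrank20 h2 hy hZ'
        have h4 := finrank_perp (Submodule.span F (Set.range fun p : Fin 8 × Fin 8 => w p.1 p.2))
        have h5 : Submodule.span F (Set.range fun p : Fin 8 × Fin 8 => sh (w p.1 p.2)) ≤
            perp (Submodule.span F (Set.range fun p : Fin 8 × Fin 8 => w p.1 p.2)) := by
          rw [Submodule.span_le]
          rintro _ ⟨p, rfl⟩
          rw [SetLike.mem_coe, perp_span]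
          intro q
          rw [tf_comm]
          exact hp.tf_disj h2 hP hpt _ _ _ _
        have h7 := Submodule.finrank_mono h5
        omega
  exact tri_kill h2 hpt' h6' hy h0 htri hp.sing hp.adj'

/-- a 4-cycle does not vanish -/
theorem Pairs.z_ne (h2 : (2 : F) = 0) (hP : PD σ σ') (hpt : NoPt 7 σ) (hpt' : NoPt 7 σ') (h6 : NoSix σ) (h6' : NoSix σ')
    (hp : Pairs σ σ' w) : Z w 0 1 2 3 ≠ 0 := fun hZ =>
  tri_kill h2 hpt h6 hp.fam hp.ne (fun h1 h3 h4 => tri_of_Z h2 hpt.inv hp.fam hZ h1 h3 h4)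
    (hp.sh0 h2 hP hpt hpt' h6') hp.adj

/-- the products -/
def qq (w : Fin 8 → Fin 8 → I27 → F) (i j k l : Fin 8) : I27 → F := cr (w i j) (w k l)

theorem Pairs.qq_act (hP : PD σ σ') (hp : Pairs σ σ' w) (g : ↥(alternatingGroup (Fin 8))) (i j k l : Fin 8) :
    σ' g (qq w i j k l) = qq w ((g : Perm (Fin 8)) i) ((g : Perm (Fin 8)) j) ((g : Perm (Fin 8)) k)
      ((g : Perm (Fin 8)) l) := by
  rw [qq, ← hP.hcr, hp.fam.act, hp.fam.act, qq]

theorem Pairs.qq12 (hp : Pairs σ σ' w) (i j k l : Fin 8) : qq w i j k l = qq w j i k l := by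
  rw [qq, qq, hp.fam.comm i j]

theorem Pairs.qq34 (hp : Pairs σ σ' w) (i j k l : Fin 8) : qq w i j k l = qq w i j l k := by
  rw [qq, qq, hp.fam.comm k l]

theorem qq_swap (i j k l : Fin 8) : qq w i j k l = qq w k l i j := cr_comm _ _

theorem Pairs.qq_zero (hp : Pairs σ σ' w) {i j k l : Fin 8} (h : ¬ [i, j, k, l].Nodup) : qq w i j k l = 0 := by
  by_cases h1 : i = j
  · rw [qq, h1, hp.fam.diag, cr_zero_left]
  by_cases h2 : k = l
  · rw [qq, h2, hp.fam.diag, cr_zero_right]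
  by_cases h3 : i = k
  · rw [qq, h3]; exact hp.adj _ _ _
  by_cases h4 : i = l
  · rw [qq, h4, hp.fam.comm k l]; exact hp.adj _ _ _
  by_cases h5 : j = k
  · rw [qq, h5, hp.fam.comm i k]; exact hp.adj _ _ _
  by_cases h6 : j = l
  · rw [qq, h6, hp.fam.comm i l, hp.fam.comm k l]; exact hp.adj _ _ _
  exfalso
  apply h
  simp
  tauto

/-- the trilinear form vanishes on the pair vectors -/
theorem Pairs.tri0 (h2 : (2 : F) = 0) (hP : PD σ σ') (hpt : NoPt 7 σ) (hp : Pairs σ σ' w) (i j k l m n : Fin 8) :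
    tf (qq w i j k l) (w m n) = 0 := by
  have hz : ∀ y : F, y + y = 0 := fun y => by rw [← two_mul, h2, zero_mul]
  have r1 : ∀ i j k l m n : Fin 8, ¬ [k, l, m, n].Nodup → tf (qq w i j k l) (w m n) = 0 := by
    intro i j k l m n h
    rw [qq, tf_cr]
    have := hp.qq_zero h
    rw [qq] at this
    rw [this, tf_zero_right]
  have r2 : ∀ i j k l m n : Fin 8, ¬ [i, j, m, n].Nodup → tf (qq w i j k l) (w m n) = 0 := by
    intro i j k l m n h
    rw [qq_swap]
    exact r1 _ _ _ _ _ _ h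
  by_cases h1 : [k, l, m, n].Nodup
  swap
  · exact r1 _ _ _ _ _ _ h1
  by_cases h3 : [i, j, m, n].Nodup
  swap
  · exact r2 _ _ _ _ _ _ h3
  by_cases h4 : [i, j, k, l].Nodup
  swap
  · rw [hp.qq_zero h4, tf_zero_left]
  have h5 : [i, j, k, l, m, n].Nodup := by
    simp at h1 h3 h4 ⊢
    tauto
  have act : ∀ (g : ↥(alternatingGroup (Fin 8))) (i j k l m n : Fin 8),
      tf (qq w ((g : Perm (Fin 8)) i) ((g : Perm (Fin 8)) j) ((g : Perm (Fin 8)) k) ((g : Perm (Fin 8)) l))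
        (w ((g : Perm (Fin 8)) m) ((g : Perm (Fin 8)) n)) = tf (qq w i j k l) (w m n) := by
    intro g i j k l m n
    rw [← hp.qq_act hP, ← hp.fam.act, hP.symm.htf]
  have key : ∀ {i j k l m n : Fin 8}, [i, j, k, l, m, n].Nodup → tf (qq w i j k l) (w m n) = tf (qq w 0 1 2 3) (w 4 5) := by
    intro i j k l m n h
    obtain ⟨g, hg⟩ := move_list (L := [0, 1, 2, 3, 4, 5]) (by decide) h rfl (by simp)
    simp only [List.map_cons, List.map_nil, List.cons.injEq, and_true] at hg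
    rw [← hg.1, ← hg.2.1, ← hg.2.2.1, ← hg.2.2.2.1, ← hg.2.2.2.2.1, ← hg.2.2.2.2.2, act]
  rw [key h5]
  have h8 := star_tf (star8 hpt hp.fam 4) (qq w 0 1 2 3)
  rw [Fin.sum_univ_eight, r2 0 1 2 3 4 0 (by decide), r2 0 1 2 3 4 1 (by decide), r1 0 1 2 3 4 2 (by decide),
    r1 0 1 2 3 4 3 (by decide), r1 0 1 2 3 4 4 (by decide), key (i := 0) (j := 1) (k := 2) (l := 3) (m := 4) (n := 6)
    (by decide), key (i := 0) (j := 1) (k := 2) (l := 3) (m := 4) (n := 7) (by decide)] at h8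
  have h9 : (0 : F) + 0 + 0 + 0 + 0 + tf (qq w 0 1 2 3) (w 4 5) + tf (qq w 0 1 2 3) (w 4 5) + tf (qq w 0 1 2 3) (w 4 5) =
      (tf (qq w 0 1 2 3) (w 4 5) + tf (qq w 0 1 2 3) (w 4 5)) + tf (qq w 0 1 2 3) (w 4 5) := by ring
  rw [h9] at h8
  simpa only [hz, zero_add] using h8

end

end Cfsg.Agent.H905.E6T
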