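import Mathlib
import Cfsg.Agent.H905.E6T.EightSh

/-!
# S5927, characteristic 2, `A₈`: the products of disjoint pairs (helper905)

`Pairs.qq23` : the product `cr (w i j) (w k l)` depends only on the set `{i, j, k, l}`.
-/

set_option autoImplicit false
set_option linter.unusedSectionVars false
set_option linter.unusedSimpArgs false
set_option linter.unusedTactic false
set_option linter.unusedVariables false

namespace Cfsg.Agent.H905.E6T

open Cfsg Cfsg.Lie Module Equiv
open Cfsg.Agent.ChevalleyStructure.E6Min.Tables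
open Cfsg.Agent.H952.F4 (ev es sh cr tf tr1 u0 GenT)
open Cfsg.Agent.H952.F4.Jord Cfsg.Agent.H163.E6

universe u

variable {F : Type u} [Field F]

/-- relations between the members of some families -/
theorem fam_rel_aux {n : ℕ} {σ : Representation F ↥(alternatingGroup (Fin n)) (I27 → F)} (h2 : (2 : F) = 0) (hn : 5 ≤ n)
    {κ : Type*} [Fintype κ]
    {v : κ → Fin n → I27 → F} (hv : ∀ k, Fam σ (v k)) {c : κ → Fin n → F} (hc : ∑ k, ∑ i, c k i • v k i = 0)
    {a b : Fin n} (hab : a ≠ b) : ∑ k, (c k a + c k b) • (v k a + v k b) = 0 := by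
  classical
  obtain ⟨m, hm0, hm1⟩ := move2 (n := n) (by omega) (a := ⟨0, by omega⟩) (b := ⟨1, by omega⟩) (c := a) (d := b)
    (by simp) hab
  set d : Fin n := (m : Perm (Fin n)) ⟨2, by omega⟩ with hd
  set e : Fin n := (m : Perm (Fin n)) ⟨3, by omega⟩ with he
  set f : Fin n := (m : Perm (Fin n)) ⟨4, by omega⟩ with hf
  have had : a ≠ d := by rw [← hm0, hd]; exact fun h => by simpa using (m : Perm (Fin n)).injective h
  have hae : a ≠ e := by rw [← hm0, he]; exact fun h => by simpa using (m : Perm (Fin n)).injective h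
  have haf : a ≠ f := by rw [← hm0, hf]; exact fun h => by simpa using (m : Perm (Fin n)).injective h
  have hbd : b ≠ d := by rw [← hm1, hd]; exact fun h => by simpa using (m : Perm (Fin n)).injective h
  have hbe : b ≠ e := by rw [← hm1, he]; exact fun h => by simpa using (m : Perm (Fin n)).injective h
  have hbf : b ≠ f := by rw [← hm1, hf]; exact fun h => by simpa using (m : Perm (Fin n)).injective h
  have hde : d ≠ e := by rw [hd, he]; exact fun h => by simpa using (m : Perm (Fin n)).injective h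
  have hdf : d ≠ f := by rw [hd, hf]; exact fun h => by simpa using (m : Perm (Fin n)).injective h
  have hef : e ≠ f := by rw [he, hf]; exact fun h => by simpa using (m : Perm (Fin n)).injective h
  clear_value d e f
  let t : ↥(alternatingGroup (Fin n)) := ⟨swap d e * swap e f, by
    rw [Perm.mem_alternatingGroup, Perm.sign_mul, Perm.sign_swap hde, Perm.sign_swap hef]; rfl⟩
  let g : ↥(alternatingGroup (Fin n)) := ⟨swap a b * swap d e, by
    rw [Perm.mem_alternatingGroup, Perm.sign_mul, Perm.sign_swap hab, Perm.sign_swap hde]; rfl⟩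
  have ht : ∀ x, (t : Perm (Fin n)) x = swap d e (swap e f x) := fun x => rfl
  have hg : ∀ x, (g : Perm (Fin n)) x = swap a b (swap d e x) := fun x => rfl
  have tn : ∀ x, x ≠ d → x ≠ e → x ≠ f → (t : Perm (Fin n)) x = x := by
    intro x h1 h2 h3
    rw [ht, swap_apply_of_ne_of_ne h2 h3, swap_apply_of_ne_of_ne h1 h2]
  have td : (t : Perm (Fin n)) d = e := by
    rw [ht, swap_apply_of_ne_of_ne hde hdf, swap_apply_left]
  have te : (t : Perm (Fin n)) e = f := by
    rw [ht, swap_apply_left, swap_apply_of_ne_of_ne hdf.symm hef.symm]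
  have tf' : (t : Perm (Fin n)) f = d := by
    rw [ht, swap_apply_right, swap_apply_right]
  have gn : ∀ x, x ≠ a → x ≠ b → x ≠ d → x ≠ e → (g : Perm (Fin n)) x = x := by
    intro x h1 h2 h3 h4
    rw [hg, swap_apply_of_ne_of_ne h3 h4, swap_apply_of_ne_of_ne h1 h2]
  have ga : (g : Perm (Fin n)) a = b := by
    rw [hg, swap_apply_of_ne_of_ne had hae, swap_apply_left]
  have gb : (g : Perm (Fin n)) b = a := by
    rw [hg, swap_apply_of_ne_of_ne hbd hbe, swap_apply_right]
  have gd : (g : Perm (Fin n)) d = e := by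
    rw [hg, swap_apply_left, swap_apply_of_ne_of_ne hae.symm hbe.symm]
  have ge : (g : Perm (Fin n)) e = d := by
    rw [hg, swap_apply_right, swap_apply_of_ne_of_ne had.symm hbd.symm]
  have gf : (g : Perm (Fin n)) f = f := gn f haf.symm hbf.symm hdf.symm hef.symm
  let T : (I27 → F) →ₗ[F] (I27 → F) := σ 1 + σ t + σ (t * t) + σ g + σ (g * t) + σ (g * t * t)
  have hT : ∀ (u : Fin n → I27 → F), Fam σ u → ∀ x, T (u x) = u x + u ((t : Perm (Fin n)) x) +
      u ((t : Perm (Fin n)) ((t : Perm (Fin n)) x)) + u ((g : Perm (Fin n)) x) +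
      u ((g : Perm (Fin n)) ((t : Perm (Fin n)) x)) +
      u ((g : Perm (Fin n)) ((t : Perm (Fin n)) ((t : Perm (Fin n)) x))) := by
    intro u hu x
    simp only [T, LinearMap.add_apply]
    rw [hu 1 x, hu t x, hu (t * t) x, hu g x, hu (g * t) x, hu (g * t * t) x]
    rfl
  have hz : ∀ y : I27 → F, y + y = 0 := fun y => add_self2 h2 y
  have hT0 : ∀ (u : Fin n → I27 → F), Fam σ u → ∀ x, T (u x) = if x = a ∨ x = b then u a + u b else 0 := by
    intro u hu x
    rw [hT u hu]
    by_cases hxa : x = a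
    · subst hxa
      rw [if_pos (Or.inl rfl), tn _ had hae haf, tn _ had hae haf, ga]
      have : u x + u x + u x + u b + u b + u b = (u x + u b) + (u x + u x) + (u b + u b) := by abel
      rw [this]; simp only [hz, add_zero]
    by_cases hxb : x = b
    · subst hxb
      rw [if_pos (Or.inr rfl), tn _ hbd hbe hbf, tn _ hbd hbe hbf, gb]
      have : u x + u x + u x + u a + u a + u a = (u a + u x) + (u x + u x) + (u a + u a) := by abel
      rw [this]; simp only [hz, add_zero]
    rw [if_neg (by tauto)]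
    by_cases hxd : x = d
    · subst hxd
      rw [td, te, gd, ge, gf]
      have : u x + u e + u f + u e + u x + u f = (u x + u x) + (u e + u e) + (u f + u f) := by abel
      rw [this]; simp only [hz, add_zero]
    by_cases hxe : x = e
    · subst hxe
      rw [te, tf', ge, gf, gd]
      have : u x + u f + u d + u d + u f + u x = (u x + u x) + (u f + u f) + (u d + u d) := by abel
      rw [this]; simp only [hz, add_zero]
    by_cases hxf : x = f
    · subst hxf
      rw [tf', td, gf, gd, ge]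
      have : u x + u d + u e + u x + u e + u d = (u x + u x) + (u e + u e) + (u d + u d) := by abel
      rw [this]; simp only [hz, add_zero]
    rw [tn x hxd hxe hxf, tn x hxd hxe hxf, gn x hxa hxb hxd hxe]
    have : u x + u x + u x + u x + u x + u x = (u x + u x) + (u x + u x) + (u x + u x) := by abel
    rw [this]; simp only [hz, add_zero]
  · have h4 := congrArg T hc
    rw [map_sum, map_zero] at h4
    rw [← h4]
    apply Finset.sum_congr rfl
    intro k _
    rw [map_sum]
    have h5 : ∀ x ∈ Finset.univ, T (c k x • v k x) = (if x = a then c k a • (v k a + v k b) else 0) +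
        (if x = b then c k b • (v k a + v k b) else 0) := by
      intro x _
      rw [map_smul, hT0 (v k) (hv k)]
      by_cases hxa : x = a
      · subst hxa
        simp [hab]
      by_cases hxb : x = b
      · subst hxb
        simp [hxa]
      · simp [hxa, hxb]
    rw [Finset.sum_congr rfl h5, Finset.sum_add_distrib, Finset.sum_ite_eq', Finset.sum_ite_eq',
      if_pos (Finset.mem_univ _), if_pos (Finset.mem_univ _), add_smul]

section

variable {σ σ' : Representation F ↥(alternatingGroup (Fin 8)) (I27 → F)} {w : Fin 8 → Fin 8 → I27 → F}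

/-- the first family -/
def mv (w : Fin 8 → Fin 8 → I27 → F) (k : Fin 8) : I27 → F := qq w 5 6 7 k + qq w 5 7 6 k

/-- the second family -/
def yv (w : Fin 8 → Fin 8 → I27 → F) (k : Fin 8) : I27 → F := qq w 6 7 5 k + qq w 6 5 7 k

theorem Pairs.mem_perp (h2 : (2 : F) = 0) (hP : PD σ σ') (hpt : NoPt 7 σ) (hp : Pairs σ σ' w) (i j k l : Fin 8) :
    qq w i j k l ∈ perp (Submodule.span F (Set.range fun p : Fin 8 × Fin 8 => w p.1 p.2)) := by
  rw [perp_span]
  intro p
  rw [tf_comm]
  exact hp.tri0 h2 hP hpt _ _ _ _ _ _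

theorem Pairs.perp_le (h2 : (2 : F) = 0) (hP : PD σ σ') (hpt : NoPt 7 σ) (hpt' : NoPt 7 σ') (h6 : NoSix σ) (h6' : NoSix σ')
    (hp : Pairs σ σ' w) :
    finrank F (perp (Submodule.span F (Set.range fun p : Fin 8 × Fin 8 => w p.1 p.2))) ≤ 7 := by
  have h1 := finrank20 h2 hp.fam (hp.z_ne h2 hP hpt hpt' h6 h6')
  have h3 := finrank_perp (Submodule.span F (Set.range fun p : Fin 8 × Fin 8 => w p.1 p.2))
  omega

/-- the first step -/
theorem Pairs.step (h2 : (2 : F) = 0) (hP : PD σ σ') (hpt : NoPt 7 σ) (hpt' : NoPt 7 σ') (h6 : NoSix σ) (h6' : NoSix σ')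
    (hp : Pairs σ σ' w) : ∃ k : Fin 8, k.val < 4 ∧ mv w k = mv w 4 := by
  have hz : ∀ y : I27 → F, y + y = 0 := fun y => add_self2 h2 y
  have h58 : 5 ≤ 8 := by norm_num
  let v : Fin 2 → Fin 5 → I27 → F := ![fun k => mv w (Fin.castLE h58 k), fun k => yv w (Fin.castLE h58 k)]
  have hv : ∀ κ, Fam (res h58 σ') (v κ) := by
    intro κ g k
    have e5 : ((io h58 g : ↥(alternatingGroup (Fin 8))) : Perm (Fin 8)) 5 = 5 := io_apply_ge _ g 5 (by decide)
    have e6 : ((io h58 g : ↥(alternatingGroup (Fin 8))) : Perm (Fin 8)) 6 = 6 := io_apply_ge _ g 6 (by decide)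
    have e7 : ((io h58 g : ↥(alternatingGroup (Fin 8))) : Perm (Fin 8)) 7 = 7 := io_apply_ge _ g 7 (by decide)
    have ek := io_apply h58 g k
    fin_cases κ
    · change σ' (io h58 g) (qq w 5 6 7 _ + qq w 5 7 6 _) = qq w 5 6 7 _ + qq w 5 7 6 _
      rw [map_add, hp.qq_act hP, hp.qq_act hP, e5, e6, e7, ek]
    · change σ' (io h58 g) (qq w 6 7 5 _ + qq w 6 5 7 _) = qq w 6 7 5 _ + qq w 6 5 7 _
      rw [map_add, hp.qq_act hP, hp.qq_act hP, e5, e6, e7, ek]
  set Y := perp (Submodule.span F (Set.range fun p : Fin 8 × Fin 8 => w p.1 p.2)) with hY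
  have hvY : ∀ κ k, v κ k ∈ Y := by
    intro κ k
    fin_cases κ
    · exact Submodule.add_mem _ (hp.mem_perp h2 hP hpt _ _ _ _) (hp.mem_perp h2 hP hpt _ _ _ _)
    · exact Submodule.add_mem _ (hp.mem_perp h2 hP hpt _ _ _ _) (hp.mem_perp h2 hP hpt _ _ _ _)
  have hdep : ¬ LinearIndependent F (fun p : Fin 2 × Fin 4 => v p.1 p.2.castSucc) := by
    intro hli
    have h1 := finrank_span_eq_card hli
    rw [Fintype.card_prod, Fintype.card_fin, Fintype.card_fin] at h1
    have h3 : Submodule.span F (Set.range fun p : Fin 2 × Fin 4 => v p.1 p.2.castSucc) ≤ Y := by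
      rw [Submodule.span_le]
      rintro _ ⟨p, rfl⟩
      exact hvY _ _
    have h4 := Submodule.finrank_mono h3
    have h5 := hp.perp_le h2 hP hpt hpt' h6 h6'
    rw [← hY] at h5
    omega
  obtain ⟨c, hc, ⟨κ, k⟩, hck⟩ := Fintype.not_linearIndependent_iff.1 hdep
  have hc' : ∑ κ, ∑ i, (Fin.snoc (α := fun _ => F) (fun i : Fin 4 => c (κ, i)) 0 : Fin 5 → F) i • v κ i = 0 := by
    rw [← hc, Fintype.sum_prod_type]
    apply Finset.sum_congr rfl
    intro κ _
    rw [Fin.sum_univ_castSucc, Fin.snoc_last, zero_smul, add_zero]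
    apply Finset.sum_congr rfl
    intro i _
    rw [Fin.snoc_castSucc]
  have h3 := fam_rel_aux h2 (le_refl 5) hv hc' (a := k.castSucc) (b := Fin.last 4) (Fin.castSucc_lt_last k).ne
  rw [Fin.sum_univ_two, Fin.snoc_castSucc, Fin.snoc_last, Fin.snoc_castSucc, Fin.snoc_last, add_zero, add_zero] at h3
  obtain ⟨K, hK⟩ : ∃ K : Fin 8, K = Fin.castLE h58 k.castSucc := ⟨_, rfl⟩
  have hK4 : K.val < 4 := by rw [hK]; exact k.2
  have e1 : v 0 k.castSucc + v 0 (Fin.last 4) = mv w K + mv w 4 := by rw [hK]; rfl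
  have e2 : v 1 k.castSucc + v 1 (Fin.last 4) = yv w K + yv w 4 := by rw [hK]; rfl
  rw [e1, e2] at h3
  -- the element of order 2
  obtain ⟨a, b, hab, ha, hb, hKa, hKb⟩ : ∃ a b : Fin 8, a ≠ b ∧ a.val < 4 ∧ b.val < 4 ∧ K ≠ a ∧ K ≠ b := by
    clear hK e1 e2 h3
    revert K
    decide
  let t : ↥(alternatingGroup (Fin 8)) := ⟨swap 6 7 * swap a b, by
    rw [Perm.mem_alternatingGroup, Perm.sign_mul, Perm.sign_swap hab, Perm.sign_swap (by decide)]; rfl⟩
  have ne : ∀ {x y : Fin 8}, x.val ≠ y.val → x ≠ y := fun h h' => h (congrArg Fin.val h')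
  have ht : ∀ x, (t : Perm (Fin 8)) x = swap 6 7 (swap a b x) := fun x => rfl
  have t5 : (t : Perm (Fin 8)) 5 = 5 := by
    rw [ht, swap_apply_of_ne_of_ne (a := a) (ne (by change 5 ≠ a.val; omega)) (ne (by change 5 ≠ b.val; omega))]
    decide
  have t6 : (t : Perm (Fin 8)) 6 = 7 := by
    rw [ht, swap_apply_of_ne_of_ne (a := a) (ne (by change 6 ≠ a.val; omega)) (ne (by change 6 ≠ b.val; omega))]
    decide
  have t7 : (t : Perm (Fin 8)) 7 = 6 := by
    rw [ht, swap_apply_of_ne_of_ne (a := a) (ne (by change 7 ≠ a.val; omega)) (ne (by change 7 ≠ b.val; omega))]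
    decide
  have t4 : (t : Perm (Fin 8)) 4 = 4 := by
    rw [ht, swap_apply_of_ne_of_ne (a := a) (ne (by change 4 ≠ a.val; omega)) (ne (by change 4 ≠ b.val; omega))]
    decide
  have tK : (t : Perm (Fin 8)) K = K := by
    rw [ht, swap_apply_of_ne_of_ne hKa hKb, swap_apply_of_ne_of_ne (ne (by change K.val ≠ 6; omega))
      (ne (by change K.val ≠ 7; omega))]
  have tm : ∀ k, (t : Perm (Fin 8)) k = k → σ' t (mv w k) = mv w k := by
    intro k hk
    rw [mv, map_add, hp.qq_act hP, hp.qq_act hP, t5, t6, t7, hk, add_comm]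
  have ty : ∀ k, (t : Perm (Fin 8)) k = k → σ' t (yv w k) = mv w k + yv w k := by
    intro k hk
    rw [yv, mv, map_add, hp.qq_act hP, hp.qq_act hP, t5, t6, t7, hk, hp.qq12 7 6 5 k, hp.qq12 7 5 6 k, hp.qq12 6 5 7 k]
    have : qq w 5 6 7 k + qq w 5 7 6 k + (qq w 6 7 5 k + qq w 5 6 7 k) = (qq w 6 7 5 k + qq w 5 7 6 k) +
      (qq w 5 6 7 k + qq w 5 6 7 k) := by abel
    rw [this, hz, add_zero]
  have h4 := congrArg (σ' t) h3
  rw [map_add, map_smul, map_smul, map_add, map_add, tm K tK, tm 4 t4, ty K tK, ty 4 t4, map_zero] at h4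
  have h5 : c (1, k) • (mv w K + mv w 4) = 0 := by
    have h7 : c (0, k) • (mv w K + mv w 4) + c (1, k) • (mv w K + yv w K + (mv w 4 + yv w 4)) =
        (c (0, k) • (mv w K + mv w 4) + c (1, k) • (yv w K + yv w 4)) + c (1, k) • (mv w K + mv w 4) := by module
    rw [h7, h3, zero_add] at h4
    exact h4
  refine ⟨K, hK4, eq_of_add2 h2 ?_⟩
  by_cases h1 : c (1, k) = 0
  · rw [h1, zero_smul, add_zero] at h3
    refine (smul_eq_zero.1 h3).resolve_left ?_
    fin_cases κ
    · exact hck
    · exact fun _ => hck h1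
  · exact (smul_eq_zero.1 h5).resolve_left h1

/-- the product depends only on the set -/
theorem Pairs.qq23 (h2 : (2 : F) = 0) (hP : PD σ σ') (hpt : NoPt 7 σ) (hpt' : NoPt 7 σ') (h6 : NoSix σ) (h6' : NoSix σ')
    (hp : Pairs σ σ' w) (i j k l : Fin 8) : qq w i j k l = qq w i k j l := by
  obtain ⟨K, hK, hm⟩ := hp.step h2 hP hpt hpt' h6 h6'
  have key : ∀ {i k l a b : Fin 8}, [i, k, l, a, b].Nodup →
      qq w i k l a + qq w i l k a = qq w i k l b + qq w i l k b := by
    intro i k l a b h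
    obtain ⟨g, hg⟩ := move_list (L := [5, 6, 7, K, 4]) (by
      revert hK; clear hm; revert K; decide) h rfl (by simp)
    simp only [List.map_cons, List.map_nil, List.cons.injEq, and_true] at hg
    have h1 := congrArg (σ' g) hm
    rw [mv, mv, map_add, map_add, hp.qq_act hP, hp.qq_act hP, hp.qq_act hP, hp.qq_act hP, hg.1, hg.2.1, hg.2.2.1,
      hg.2.2.2.1, hg.2.2.2.2] at h1
    exact h1
  have e1 := key (i := 0) (k := 2) (l := 3) (a := 1) (b := 4) (by decide)
  have e2 := key (i := 3) (k := 0) (l := 4) (a := 2) (b := 1) (by decide)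
  have e3 := key (i := 0) (k := 1) (l := 3) (a := 4) (b := 2) (by decide)
  have f2 : qq w 3 0 4 2 + qq w 3 4 0 2 = qq w 0 2 3 4 + qq w 0 3 2 4 := by
    rw [hp.qq12 3 0 4 2, hp.qq34 0 3 4 2, qq_swap 3 4 0 2, add_comm]
  have f3 : qq w 3 0 4 1 + qq w 3 4 0 1 = qq w 0 1 3 4 + qq w 0 3 1 4 := by
    rw [hp.qq12 3 0 4 1, hp.qq34 0 3 4 1, qq_swap 3 4 0 1, add_comm]
  have h3 : qq w 0 2 1 3 = qq w 0 1 2 3 := by
    have h4 : qq w 0 2 3 1 + qq w 0 3 2 1 = qq w 0 1 3 2 + qq w 0 3 1 2 := by
      rw [e1, ← f2, e2, f3, e3]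
    rw [hp.qq34 0 3 2 1] at h4
    rw [hp.qq34 0 2 1 3, hp.qq34 0 1 2 3]
    exact add_right_cancel h4
  by_cases h : [i, j, k, l].Nodup
  · obtain ⟨g, hg⟩ := move_list (L := [0, 1, 2, 3]) (by decide) h rfl (by simp)
    simp only [List.map_cons, List.map_nil, List.cons.injEq, and_true] at hg
    have h1 := congrArg (σ' g) h3
    rw [hp.qq_act hP, hp.qq_act hP, hg.1, hg.2.1, hg.2.2.1, hg.2.2.2] at h1
    exact h1.symm
  · rw [hp.qq_zero h, hp.qq_zero]
    intro h'
    apply h
    simp at h' ⊢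
    tauto

end

end Cfsg.Agent.H905.E6T
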