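import Mathlib
import Cfsg.Agent.H905.E6T.EightCol

/-!
# S5927, characteristic 2, `A₈`: the end of the case without `A₇`-fixed vectors (helper905)

The product of the pair vectors is a function on the 4-subsets; the sum over the 4-subsets of a 5-subset vanishes, so the
triangles span a totally singular subspace of dimension at least 14: contradiction (`Pairs.false`).
-/

set_option autoImplicit false
set_option linter.unusedSectionVars false
set_option linter.unusedSimpArgs false
set_option linter.unusedTactic false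
set_option linter.unusedVariables false

namespace Cfsg.Agent.H905.E6T

open Cfsg Cfsg.Lie Module Equiv
open Cfsg.Agent.ChevalleyStructure.E6Min.Tables
open Cfsg.Agent.H952.F4 (ev es sh cr tf tr1 u0 GenT)
open Cfsg.Agent.H952.F4.Jord Cfsg.Agent.H163.E6

universe u

variable {F : Type u} [Field F]

/-- a sum in which all codes `≠ 0` occur an even number of times is zero -/
theorem par_xor (h2 : (2 : F) = 0) {ι M : Type*} [AddCommGroup M] [Module F M] (code : ι → ℕ) (N : ℕ) (f : ι → M)
    (hf : ∀ x y, code x = code y → f x = f y) (h0 : ∀ x, code x = 0 → f x = 0) (hN : ∀ x, code x < N) (L : List ι)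
    (hL : L.foldr (fun x a => a ^^^ 2 ^ code x) 0 ≤ 1) : (L.map f).sum = 0 := by
  classical
  have hz : ∀ y : M, y + y = 0 := fun y => add_self2 h2 y
  let r : ℕ → M := fun k => if h : ∃ x, code x = k then f h.choose else 0
  have hr : ∀ x, r (code x) = f x := by
    intro x
    have h : ∃ y, code y = code x := ⟨x, rfl⟩
    simp only [r, dif_pos h]
    exact hf _ _ h.choose_spec
  have key : ∀ L : List ι, (L.map f).sum = ∑ k ∈ Finset.range N,
      if (L.foldr (fun x a => a ^^^ 2 ^ code x) 0).testBit k = true then r k else 0 := by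
    intro L
    induction L with
    | nil => simp
    | cons x L ih =>
      rw [List.map_cons, List.sum_cons, ih, List.foldr_cons]
      have h1 : ∀ k ∈ Finset.range N,
          (if ((L.foldr (fun x a => a ^^^ 2 ^ code x) 0) ^^^ 2 ^ code x).testBit k = true then r k else 0) =
          (if k = code x then r k else 0) +
            (if (L.foldr (fun x a => a ^^^ 2 ^ code x) 0).testBit k = true then r k else 0) := by
        intro k _
        rw [Nat.testBit_xor, Nat.testBit_two_pow]
        by_cases h : k = code x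
        · cases (L.foldr (fun x a => a ^^^ 2 ^ code x) 0).testBit k
          · simp [h]
          · simp [h, hz]
        · have h' : ¬ code x = k := fun e => h e.symm
          simp [h, h']
      rw [Finset.sum_congr rfl h1, Finset.sum_add_distrib, Finset.sum_ite_eq', if_pos (Finset.mem_range.2 (hN x)), hr]
  rw [key]
  apply Finset.sum_eq_zero
  intro k hk
  rcases Nat.eq_zero_or_pos k with rfl | hk0
  · have : r 0 = 0 := by
      by_cases h : ∃ x, code x = 0
      · simp only [r, dif_pos h]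
        exact h0 _ h.choose_spec
      · simp only [r, dif_neg h]
    rw [this, ite_self]
  · rw [if_neg]
    rw [Nat.testBit_lt_two_pow]
    · exact Bool.false_ne_true
    · have : 2 ^ 1 ≤ 2 ^ k := Nat.pow_le_pow_right (by norm_num) hk0
      omega

/-! ### quadruples of points -/

abbrev Q4 : Type := Fin 8 × Fin 8 × Fin 8 × Fin 8

def cs1 (x : Q4) : Q4 := if x.1 ≤ x.2.1 then x else (x.2.1, x.1, x.2.2.1, x.2.2.2)
def cs2 (x : Q4) : Q4 := if x.2.1 ≤ x.2.2.1 then x else (x.1, x.2.2.1, x.2.1, x.2.2.2)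
def cs3 (x : Q4) : Q4 := if x.2.2.1 ≤ x.2.2.2 then x else (x.1, x.2.1, x.2.2.2, x.2.2.1)

/-- sorting -/
def net (x : Q4) : Q4 := cs1 (cs2 (cs1 (cs3 (cs2 (cs1 x)))))

def enc (x : Q4) : ℕ := ((x.1.val * 8 + x.2.1.val) * 8 + x.2.2.1.val) * 8 + x.2.2.2.val

theorem enc_inj {x y : Q4} (h : enc x = enc y) : x = y := by
  obtain ⟨a, b, c, d⟩ := x
  obtain ⟨a', b', c', d'⟩ := y
  unfold enc at h
  simp only at h
  have := a.2; have := b.2; have := c.2; have := d.2
  have := a'.2; have := b'.2; have := c'.2; have := d'.2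
  simp only [Prod.mk.injEq, Fin.ext_iff]
  omega

/-- the code of a quadruple -/
def cd (x : Q4) : ℕ := if [x.1, x.2.1, x.2.2.1, x.2.2.2].Nodup then enc (net x) + 1 else 0

theorem cd_lt (x : Q4) : cd x < 4097 := by
  unfold cd
  split_ifs
  · obtain ⟨a, b, c, d⟩ := net x
    unfold enc
    simp only
    have := a.2; have := b.2; have := c.2; have := d.2
    omega
  · norm_num

/-- the pairs `i < j` -/
def PL : List (Fin 8 × Fin 8) := (List.finRange 8).flatMap fun i => (List.finRange 8).filterMap fun j =>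
  if i < j then some (i, j) else none

/-- the quadruples `i < j < k < l` -/
def TL : List Q4 := PL.flatMap fun p => PL.filterMap fun q => if p.2 < q.1 then some (p.1, p.2, q.1, q.2) else none

def gact (k : Fin 8) (x : Q4) : Q4 :=
  ((swap 0 1 * swap 0 k : Perm (Fin 8)) x.1, (swap 0 1 * swap 0 k : Perm (Fin 8)) x.2.1,
    (swap 0 1 * swap 0 k : Perm (Fin 8)) x.2.2.1, (swap 0 1 * swap 0 k : Perm (Fin 8)) x.2.2.2)

def xorL (L : List Q4) : ℕ := L.foldr (fun x a => a ^^^ 2 ^ cd x) 0

theorem TL_inv : ∀ k : Fin 8, k ≠ 0 → xorL (TL.map (gact k) ++ TL) ≤ 1 := by decide +kernel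

def star4 (t : Fin 8 × Fin 8 × Fin 8) : List Q4 := (List.finRange 8).map fun l => (t.1, t.2.1, t.2.2, l)

def pair4 (p : Fin 8 × Fin 8) : List Q4 := PL.map fun q => (p.1, p.2, q.1, q.2)

def PP (a b c d e : Fin 8) : List Q4 := [(b, c, d, e), (a, c, d, e), (a, b, d, e), (a, b, c, e), (a, b, c, d)]

def pr5 : List (Fin 8 × Fin 8) :=
  [(0, 1), (0, 2), (0, 3), (0, 4), (1, 2), (1, 3), (1, 4), (2, 3), (2, 4), (3, 4)]

theorem five_rel : xorL (star4 (5, 6, 7) ++ (pr5.flatMap pair4 ++ (TL ++ PP 0 1 2 3 4))) ≤ 1 := by decide +kernel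

theorem deg_rel : ∀ j k l m : Fin 8, ¬ [0, j, k, l, m].Nodup → xorL (PP 0 j k l m) ≤ 1 := by decide +kernel

theorem PL_nodup : PL.Nodup := by decide +kernel

theorem PL_finset : PL.toFinset = Finset.univ.filter (fun p : Fin 8 × Fin 8 => p.1 < p.2) := by decide +kernel

section

variable {σ σ' : Representation F ↥(alternatingGroup (Fin 8)) (I27 → F)} {w : Fin 8 → Fin 8 → I27 → F}

/-- the products as a function of quadruples -/
def fq (w : Fin 8 → Fin 8 → I27 → F) (x : Q4) : I27 → F := qq w x.1 x.2.1 x.2.2.1 x.2.2.2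

theorem map_list_sum (g : ↥(alternatingGroup (Fin 8))) (L : List Q4) (f : Q4 → I27 → F) :
    σ g (L.map f).sum = (L.map fun x => σ g (f x)).sum := by
  induction L with
  | nil => simp
  | cons a L ih => rw [List.map_cons, List.sum_cons, List.map_cons, List.sum_cons, ← ih, map_add]

theorem sum_flat {α : Type*} (T : List α) (g : α → List Q4) (f : Q4 → I27 → F) (h : ∀ t ∈ T, ((g t).map f).sum = 0) :
    ((T.flatMap g).map f).sum = 0 := by
  induction T with
  | nil => simp
  | cons a T ih =>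
    rw [List.flatMap_cons, List.map_append, List.sum_append, h a (List.mem_cons_self), zero_add]
    exact ih fun t ht => h t (List.mem_cons_of_mem _ ht)

/-- cancellation for quadruples -/
theorem Pairs.xor (h2 : (2 : F) = 0) (hP : PD σ σ') (hpt : NoPt 7 σ) (hpt' : NoPt 7 σ') (h6 : NoSix σ) (h6' : NoSix σ')
    (hp : Pairs σ σ' w) (L : List Q4) (hL : xorL L ≤ 1) : (L.map (fq w)).sum = 0 := by
  have h23 := hp.qq23 h2 hP hpt hpt' h6 h6'
  have e1 : ∀ x, fq w (cs1 x) = fq w x := by
    intro x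
    unfold cs1
    split_ifs
    · rfl
    · exact hp.qq12 _ _ _ _
  have e2 : ∀ x, fq w (cs2 x) = fq w x := by
    intro x
    unfold cs2
    split_ifs
    · rfl
    · exact h23 _ _ _ _
  have e3 : ∀ x, fq w (cs3 x) = fq w x := by
    intro x
    unfold cs3
    split_ifs
    · rfl
    · exact hp.qq34 _ _ _ _
  have en : ∀ x, fq w (net x) = fq w x := by
    intro x
    rw [net, e1, e2, e1, e3, e2, e1]
  have z0 : ∀ x, cd x = 0 → fq w x = 0 := by
    intro x h
    unfold cd at h
    split_ifs at h with h'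
    exact hp.qq_zero h'
  refine par_xor h2 cd 4097 (fq w) ?_ z0 cd_lt L hL
  intro x y h
  by_cases hx : cd x = 0
  · rw [z0 x hx, z0 y (by rw [← h, hx])]
  · have hy : cd y ≠ 0 := by rw [← h]; exact hx
    have h1 : [x.1, x.2.1, x.2.2.1, x.2.2.2].Nodup := by
      by_contra h1
      exact hx (by unfold cd; rw [if_neg h1])
    have h3 : [y.1, y.2.1, y.2.2.1, y.2.2.2].Nodup := by
      by_contra h3
      exact hy (by unfold cd; rw [if_neg h3])
    unfold cd at h
    rw [if_pos h1, if_pos h3] at h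
    have := enc_inj (Nat.succ_injective h)
    rw [← en x, this, en y]

theorem Pairs.star_zero (hpt : NoPt 7 σ) (hp : Pairs σ σ' w) (t : Fin 8 × Fin 8 × Fin 8) :
    ((star4 t).map (fq w)).sum = 0 := by
  rw [star4, List.map_map]
  have h1 := star_cr (star8 hpt hp.fam t.2.2) (w t.1 t.2.1)
  rw [Fin.sum_univ_def] at h1
  exact h1

theorem Pairs.pair_zero (hpt : NoPt 7 σ) (hp : Pairs σ σ' w) (p : Fin 8 × Fin 8) : ((pair4 p).map (fq w)).sum = 0 := by
  rw [pair4, List.map_map]
  have h1 := fam2_all hp.fam hpt.inv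
  rw [← PL_finset] at h1
  have h3 := congrArg (crB F (w p.1 p.2)) h1
  rw [map_sum, map_zero, List.sum_toFinset _ PL_nodup] at h3
  exact h3

theorem Pairs.total_zero (h2 : (2 : F) = 0) (hP : PD σ σ') (hpt : NoPt 7 σ) (hpt' : NoPt 7 σ') (h6 : NoSix σ)
    (h6' : NoSix σ') (hp : Pairs σ σ' w) : (TL.map (fq w)).sum = 0 := by
  apply mem_inv hpt'.inv
  refine fixed_of_star (n := 6) ?_
  intro k hk
  rw [map_list_sum]
  have h1 := hp.xor h2 hP hpt hpt' h6 h6' _ (TL_inv k hk)
  rw [List.map_append, List.sum_append, List.map_map] at h1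
  rw [← eq_of_add2 h2 h1]
  congr 1
  apply List.map_congr_left
  intro x _
  exact hp.qq_act hP _ _ _ _ _

theorem Pairs.five_zero (h2 : (2 : F) = 0) (hP : PD σ σ') (hpt : NoPt 7 σ) (hpt' : NoPt 7 σ') (h6 : NoSix σ)
    (h6' : NoSix σ') (hp : Pairs σ σ' w) : ((PP 0 1 2 3 4).map (fq w)).sum = 0 := by
  have h1 := hp.xor h2 hP hpt hpt' h6 h6' _ five_rel
  rw [List.map_append, List.sum_append, List.map_append, List.sum_append, List.map_append, List.sum_append,
    hp.star_zero hpt, sum_flat _ _ _ (fun t _ => hp.pair_zero hpt t), hp.total_zero h2 hP hpt hpt' h6 h6', zero_add,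
    zero_add, zero_add] at h1
  exact h1

theorem Pairs.PP_zero (h2 : (2 : F) = 0) (hP : PD σ σ') (hpt : NoPt 7 σ) (hpt' : NoPt 7 σ') (h6 : NoSix σ)
    (h6' : NoSix σ') (hp : Pairs σ σ' w) (j k l m : Fin 8) : ((PP 0 j k l m).map (fq w)).sum = 0 := by
  by_cases h : [0, j, k, l, m].Nodup
  · obtain ⟨g, hg⟩ := move_list (L := [0, 1, 2, 3, 4]) (by decide) h rfl (by simp)
    simp only [List.map_cons, List.map_nil, List.cons.injEq, and_true] at hg
    have h1 := congrArg (σ' g) (hp.five_zero h2 hP hpt hpt' h6 h6')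
    simp only [PP, List.map_cons, List.map_nil, List.sum_cons, List.sum_nil, fq, add_zero, map_add, map_zero,
      hp.qq_act hP, hg.1, hg.2.1, hg.2.2.1, hg.2.2.2.1, hg.2.2.2.2] at h1 ⊢
    exact h1
  · exact hp.xor h2 hP hpt hpt' h6 h6' _ (deg_rel j k l m h)

/-- the triangles through the point 0 -/
def tri (w : Fin 8 → Fin 8 → I27 → F) (j k : Fin 8) : I27 → F := w 0 j + w 0 k + w j k

theorem Pairs.cr_tri (h2 : (2 : F) = 0) (hP : PD σ σ') (hpt : NoPt 7 σ) (hpt' : NoPt 7 σ') (h6 : NoSix σ)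
    (h6' : NoSix σ') (hp : Pairs σ σ' w) (j k l m : Fin 8) : cr (tri w j k) (tri w l m) = 0 := by
  have h23 := hp.qq23 h2 hP hpt hpt' h6 h6'
  have h1 := hp.PP_zero h2 hP hpt hpt' h6 h6' j k l m
  simp only [PP, List.map_cons, List.map_nil, List.sum_cons, List.sum_nil, fq, add_zero] at h1
  have f1 : cr (w 0 j) (w l m) = qq w 0 j l m := rfl
  have f2 : cr (w 0 k) (w l m) = qq w 0 k l m := rfl
  have f3 : cr (w j k) (w 0 l) = qq w 0 j k l := by
    rw [cr_comm, show cr (w 0 l) (w j k) = qq w 0 l j k from rfl, h23, hp.qq34]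
  have f4 : cr (w j k) (w 0 m) = qq w 0 j k m := by
    rw [cr_comm, show cr (w 0 m) (w j k) = qq w 0 m j k from rfl, h23, hp.qq34]
  have f5 : cr (w j k) (w l m) = qq w j k l m := rfl
  rw [tri, tri]
  simp only [cr_add_left, cr_add_right, hp.adj, f1, f2, f3, f4, f5, zero_add]
  rw [← h1]
  abel

theorem Pairs.sh_tri (h2 : (2 : F) = 0) (hP : PD σ σ') (hpt : NoPt 7 σ) (hpt' : NoPt 7 σ') (h6 : NoSix σ)
    (h6' : NoSix σ') (hp : Pairs σ σ' w) (j k : Fin 8) : sh (tri w j k) = 0 := by
  have hs := hp.sh0 h2 hP hpt hpt' h6'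
  have a1 : cr (w 0 j) (w j k) = 0 := by rw [hp.fam.comm 0 j]; exact hp.adj _ _ _
  have a2 : cr (w 0 k) (w j k) = 0 := by rw [hp.fam.comm 0 k, hp.fam.comm j k]; exact hp.adj _ _ _
  rw [tri, sh_add, sh_add, hs, hs, hs, hp.adj, cr_add_left, a1, a2]
  simp

/-- the contradiction -/
theorem Pairs.false (h2 : (2 : F) = 0) (hP : PD σ σ') (hpt : NoPt 7 σ) (hpt' : NoPt 7 σ') (h6 : NoSix σ)
    (h6' : NoSix σ') (hp : Pairs σ σ' w) : False := by
  set U := Submodule.span F (Set.range fun p : Fin 8 × Fin 8 => tri w p.1 p.2) with hU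
  set B := Submodule.span F (Set.range fun j : Fin 6 => w 0 (Fin.castLE (show 7 ≤ 8 by norm_num) j.succ)) with hB
  have hts : TS U := ts_span (fun p => hp.sh_tri h2 hP hpt hpt' h6 h6' p.1 p.2)
    (fun p q => hp.cr_tri h2 hP hpt hpt' h6 h6' p.1 p.2 q.1 q.2)
  have h13 := ts_le hts
  have h20 := finrank20 h2 hp.fam (hp.z_ne h2 hP hpt hpt' h6 h6')
  have hB6 : finrank F B ≤ 6 := by
    have := finrank_range_le_card (R := F) (fun j : Fin 6 => w 0 (Fin.castLE (show 7 ≤ 8 by norm_num) j.succ))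
    rw [Fintype.card_fin] at this
    exact this
  have h0 : ∀ j : Fin 8, w 0 j ∈ U ⊔ B := by
    have hlt : ∀ j : Fin 8, j ≠ 7 → w 0 j ∈ B := by
      intro j hj
      by_cases hj0 : j = 0
      · rw [hj0, hp.fam.diag]; exact Submodule.zero_mem _
      · refine Submodule.subset_span ⟨⟨j.val - 1, ?_⟩, ?_⟩
        · have := j.2
          have h8 : j.val ≠ 7 := fun h => hj (Fin.ext h)
          omega
        · have h8 : j.val ≠ 0 := fun h => hj0 (Fin.ext h)
          change w 0 _ = w 0 j
          congr 1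
          apply Fin.ext
          change j.val - 1 + 1 = j.val
          omega
    intro j
    apply Submodule.mem_sup_right
    by_cases hj : j = 7
    · have h1 := star8 hpt hp.fam 0
      rw [Fin.sum_univ_castSucc] at h1
      have h3 := eq_of_add2 h2 h1
      rw [hj]
      change w 0 (Fin.last 7) ∈ B
      rw [← h3]
      exact Submodule.sum_mem _ fun i _ => hlt _ (Fin.castSucc_lt_last i).ne
    · exact hlt j hj
  have hle : Submodule.span F (Set.range fun p : Fin 8 × Fin 8 => w p.1 p.2) ≤ U ⊔ B := by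
    rw [Submodule.span_le]
    rintro _ ⟨p, rfl⟩
    change w p.1 p.2 ∈ U ⊔ B
    have h1 : w p.1 p.2 = tri w p.1 p.2 + (w 0 p.1 + w 0 p.2) := by
      rw [tri]
      have : w 0 p.1 + w 0 p.2 + w p.1 p.2 + (w 0 p.1 + w 0 p.2) = w p.1 p.2 + ((w 0 p.1 + w 0 p.2) +
        (w 0 p.1 + w 0 p.2)) := by abel
      rw [this, add_self2 h2, add_zero]
    rw [h1]
    exact Submodule.add_mem _ (Submodule.mem_sup_left (Submodule.subset_span ⟨p, rfl⟩))
      (Submodule.add_mem _ (h0 _) (h0 _))
  have h1 := Submodule.finrank_mono hle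
  have h3 := Submodule.finrank_add_le_finrank_add_finrank U B
  omega

end

end Cfsg.Agent.H905.E6T
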