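import Mathlib
import Cfsg.Agent.H905.E6T.EightFin

/-!
# S5927, characteristic 2, `A₈` (helper905)

`eight_kill_of` : `A₈` in characteristic 2, without fixed vectors and totally singular 6-spaces: contradiction, provided the
case with a vector fixed by `A₇` is settled.
-/

set_option autoImplicit false
set_option linter.unusedSectionVars false

namespace Cfsg.Agent.H905.E6T

open Cfsg Cfsg.Lie Module Equiv
open Cfsg.Agent.ChevalleyStructure.E6Min.Tables
open Cfsg.Agent.H952.F4 (ev es sh cr tf tr1 u0 GenT)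
open Cfsg.Agent.H952.F4.Jord Cfsg.Agent.H163.E6

universe u

variable {F : Type u} [Field F] {σ σ' : Representation F ↥(alternatingGroup (Fin 8)) (I27 → F)}

/-- a vector fixed by a point stabilizer gives a family -/
theorem fam_of_not_noPt (h : ¬ NoPt 7 σ) : ∃ u : Fin 8 → I27 → F, Fam σ u ∧ u 0 ≠ 0 := by
  unfold NoPt at h
  push Not at h
  obtain ⟨x, hx, hx0⟩ := h
  obtain ⟨u, hu, hu7⟩ := exists_fam (n := 8) (σ := σ) (by norm_num) 7 x hx
  refine ⟨u, hu, fun h0 => hx0 ?_⟩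
  rw [← hu7]
  exact fam_eq_zero (by norm_num) hu h0 7

/-- the case without vectors fixed by point stabilizers -/
theorem eight_two_kill (h2 : (2 : F) = 0) (hP : PD σ σ') (hpt : NoPt 7 σ) (hpt' : NoPt 7 σ')
    (h6 : NoSix σ) (h6' : NoSix σ') (h15 : ∀ g, g * g = 1 → 15 ≤ ev (σ g) 1) (h8 : ∀ g, g ^ 4 = 1 → 8 ≤ ev (σ g) 1)
    (h5 : ∀ g : ↥(alternatingGroup (Fin 8)), (g : Perm (Fin 8)).cycleType = {5} → 7 ≤ ev (σ g) 1) : False := by
  obtain ⟨x, y, hgen, hx, hy, hxy⟩ := gen6c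
  have h1 := (hP.res (show 6 ≤ 8 by norm_num)).scott hgen
  have h3 := h15 (io (show 6 ≤ 8 by norm_num) x) (by
    rw [← map_mul]
    have := pow_of_ct x hx
    rw [show ({2, 2} : Multiset ℕ).lcm = 2 by decide, pow_two] at this
    rw [this, map_one])
  have h4 := h8 (io (show 6 ≤ 8 by norm_num) y) (by
    rw [← map_pow]
    have := pow_of_ct y hy
    rw [show ({4, 2} : Multiset ℕ).lcm = 4 by decide] at this
    rw [this, map_one])
  have h7 := h5 (io (show 6 ≤ 8 by norm_num) (x * y)) (by rw [ct_io]; exact hxy)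
  rw [res_apply, res_apply, res_apply] at h1
  rcases le_or_gt 2 (finrank F (res (show 6 ≤ 8 by norm_num) σ).invariants) with h | h
  · obtain ⟨w, hw⟩ := exists_pairs h2 hP hpt hpt' h
    exact hw.false h2 hP hpt hpt' h6 h6'
  · obtain ⟨w, hw⟩ := exists_pairs h2 hP.symm hpt' hpt (by omega)
    exact hw.false h2 hP.symm hpt' hpt h6' h6

theorem eight_kill_of (h2 : (2 : F) = 0) (hP : PD σ σ') (hinv : σ.invariants = ⊥) (hinv' : σ'.invariants = ⊥)
    (h6 : NoSix σ) (h6' : NoSix σ') (h15 : ∀ g, g * g = 1 → 15 ≤ ev (σ g) 1) (h8 : ∀ g, g ^ 4 = 1 → 8 ≤ ev (σ g) 1)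
    (h5 : ∀ g : ↥(alternatingGroup (Fin 8)), (g : Perm (Fin 8)).cycleType = {5} → 7 ≤ ev (σ g) 1)
    (hone : ∀ {σ σ' : Representation F ↥(alternatingGroup (Fin 8)) (I27 → F)}, PD σ σ' → σ.invariants = ⊥ →
      σ'.invariants = ⊥ → NoSix σ → NoSix σ' → ∀ {u : Fin 8 → I27 → F}, Fam σ u → u 0 ≠ 0 → False) : False := by
  by_cases hpt : NoPt 7 σ
  · by_cases hpt' : NoPt 7 σ'
    · exact eight_two_kill h2 hP hpt hpt' h6 h6' h15 h8 h5
    · obtain ⟨u, hu, h0⟩ := fam_of_not_noPt hpt'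
      exact hone hP.symm hinv' hinv h6' h6 hu h0
  · obtain ⟨u, hu, h0⟩ := fam_of_not_noPt hpt
    exact hone hP hinv hinv' h6 h6' hu h0

end Cfsg.Agent.H905.E6T
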