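import Mathlib
import Cfsg.Agent.H905.E6T.SevenKill
import Cfsg.Agent.H163.E6.Bgrp
import Cfsg.Agent.H200.E6Two
import Cfsg.Agent.H944.E6Tab
import Cfsg.Agent.H177.F4.BigTools

/-!
# S5927, S5928: characteristic 2, the wrapper (helper905)

`facts` : the situation `Sit H n φ` with a lift gives the hypotheses of the abstract theorems.
`seven_two` : `A₇`, characteristic 2.
-/

set_option autoImplicit false

namespace Cfsg.Agent.H905.E6T

open Cfsg Cfsg.Lie Module Equiv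
open Cfsg.Agent.ChevalleyStructure.E6Min.Tables Cfsg.Agent.ChevalleyStructure.E6Min.Basic
  Cfsg.Agent.ChevalleyStructure.E6Min.Adjoint
open Cfsg.Agent.H952.F4 (ev es sh cr tf)
open Cfsg.Agent.H163.E6

universe u

variable {F : Type u} [Field F] {H : Subgroup ↥(chevE6.group F)}

/-- the two modules restricted to the lift -/
theorem pd_lift {n : ℕ} (ψ : ↥(alternatingGroup (Fin n)) →* ↥(Zgrp F)) :
    PD (MonoidHom.comp (V F) ψ : Representation F ↥(alternatingGroup (Fin n)) (I27 → F))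
      (MonoidHom.comp (V' F) ψ : Representation F ↥(alternatingGroup (Fin n)) (I27 → F)) where
  htf g x y := Act.tf_act (ψ g) x y
  hsh g x := Act.sh_act (ψ g) x
  hsh' g x := Act.sh_act' (ψ g) x

/-- the hypotheses of the abstract theorems -/
theorem facts [Finite F] [CharP F 2] {n : ℕ} (hn : 7 ≤ n) {φ : ↥(alternatingGroup (Fin n)) →* ↥(chevE6.group F)}
    (hS : Sit H n φ) {ψ : ↥(alternatingGroup (Fin n)) →* ↥(Zgrp F)} (hψ : Lift φ ψ) :
    ∃ σ σ' : Representation F ↥(alternatingGroup (Fin n)) (I27 → F), PD σ σ' ∧ σ.invariants = ⊥ ∧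
      σ'.invariants = ⊥ ∧ NoSix σ ∧ NoSix σ' ∧ (∀ g, g * g = 1 → 15 ≤ ev (σ g) 1) ∧
      (∀ g, g ^ 4 = 1 → 8 ≤ ev (σ g) 1) ∧
      (∀ g : ↥(alternatingGroup (Fin n)), (g : Perm (Fin n)).cycleType = {5} → 7 ≤ ev (σ g) 1) := by
  refine ⟨MonoidHom.comp (V F) ψ, MonoidHom.comp (V' F) ψ, pd_lift ψ, (hS.no_fixed ψ hψ).1, (hS.no_fixed ψ hψ).2,
    ?_, ?_, ?_, ?_, ?_⟩
  · intro W hW h6 hts
    exact hS.no_six (V F) (Or.inl rfl) W (stab_of_lift (Or.inl rfl) hψ hW) h6 hts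
  · intro W hW h6 hts
    exact hS.no_six (V' F) (Or.inr rfl) W (stab_of_lift (Or.inr rfl) hψ hW) h6 hts
  · intro g hg
    exact Tor.two_two (ψ g) (by rw [← map_mul, hg, map_one])
  · intro g hg
    exact Tor.two_four (ψ g) (by rw [← map_pow, hg, map_one])
  · intro g hg
    have hT : Tab 2 F := Tor.tab 2
    have hinj : Function.Injective ψ := fun a b h => hS.inj (by rw [← hψ a, ← hψ b, h])
    obtain ⟨k, hk⟩ := Cfsg.Agent.H177.F4.rat_five hn hg
    have h1 : ψ g ≠ 1 := fun h => Cfsg.Agent.H177.F4.ne_one_of_type hg (by decide) (hinj (h.trans (map_one ψ).symm))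
    have h2 := hT.five_rat (by norm_num) (ψ g) h1
      (by rw [← map_pow, Cfsg.Agent.H177.F4.pow_of_type hg (by decide), map_one])
      ⟨ψ k, by rw [← map_inv, ← map_mul, ← map_mul, hk, map_pow]⟩
    exact h2.1.symm.le

end Cfsg.Agent.H905.E6T

namespace Cfsg.Agent.H163.E6.Cases

open Cfsg Cfsg.Lie Module
open Cfsg.Agent.ChevalleyStructure.E6Min.Tables Cfsg.Agent.ChevalleyStructure.E6Min.Basic
  Cfsg.Agent.ChevalleyStructure.E6Min.Adjoint

universe u

variable {F : Type u} [Field F] [Finite F] {H : Subgroup ↥(chevE6.group F)}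

/-- `A₇`, characteristic 2 -/
theorem seven_two [CharP F 2] {φ : ↥(alternatingGroup (Fin 7)) →* ↥(chevE6.group F)} (hS : Sit H 7 φ)
    {ψ : ↥(alternatingGroup (Fin 7)) →* ↥(Zgrp F)} (hψ : Lift φ ψ) : False := by
  have h2 : (2 : F) = 0 := by exact_mod_cast CharP.cast_eq_zero F 2
  obtain ⟨σ, σ', hP, hinv, hinv', h6, h6', h15, h8, h5⟩ := Cfsg.Agent.H905.E6T.facts (le_refl 7) hS hψ
  exact Cfsg.Agent.H905.E6T.seven_kill h2 hP hinv hinv' h6 h6' h15 h8 h5

end Cfsg.Agent.H163.E6.Cases
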