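import Mathlib
import Cfsg.Agent.H905.E6T.EightKill
import Cfsg.Agent.H905.E6T.Wrap
import Cfsg.Agent.H288.E6.EightOne

/-!
# S5927, S5928: `A₈` in characteristic 2 (helper905, case (I) by helper288)
-/

set_option autoImplicit false

namespace Cfsg.Agent.H163.E6.Cases

open Cfsg Cfsg.Lie Module
open Cfsg.Agent.ChevalleyStructure.E6Min.Tables Cfsg.Agent.ChevalleyStructure.E6Min.Basic
  Cfsg.Agent.ChevalleyStructure.E6Min.Adjoint

universe u

variable {F : Type u} [Field F] [Finite F] {H : Subgroup ↥(chevE6.group F)}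

/-- `A₈`, characteristic 2 -/
theorem big_two_eight [CharP F 2] {φ : ↥(alternatingGroup (Fin 8)) →* ↥(chevE6.group F)} (hS : Sit H 8 φ)
    {ψ : ↥(alternatingGroup (Fin 8)) →* ↥(Zgrp F)} (hψ : Lift φ ψ) : False := by
  have h2 : (2 : F) = 0 := by exact_mod_cast CharP.cast_eq_zero F 2
  obtain ⟨σ, σ', hP, hinv, hinv', h6, h6', h15, h8, h5⟩ := Cfsg.Agent.H905.E6T.facts (by norm_num) hS hψ
  exact Cfsg.Agent.H905.E6T.eight_kill_of h2 hP hinv hinv' h6 h6' h15 h8 h5
    fun hP hinv hinv' h6 h6' _ hu h0 => Cfsg.Agent.H288.E6.eight_one h2 hP hinv hinv' h6 h6' hu h0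

end Cfsg.Agent.H163.E6.Cases
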