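import Mathlib
import Cfsg.Agent.H905.E6T.Fam

/-!
# S5927, characteristic 2: relations in families indexed by pairs (helper905)

`w i j` a family of vectors indexed by the pairs of points (`n = 7, 8`), `Z w a b c d` the sum over the 4-cycle
`a c b d`. If one of the 4-cycles is not zero, the `w i j` with `0 < i < j`, `(i, j) ≠ (1, 2)` are linearly independent.
-/

set_option autoImplicit false
set_option linter.unusedSectionVars false
set_option linter.unusedSimpArgs false
set_option linter.unusedTactic false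

namespace Cfsg.Agent.H905.E6T

open Cfsg Cfsg.Lie Module Equiv
open Cfsg.Agent.ChevalleyStructure.E6Min.Tables
open Cfsg.Agent.H952.F4 (ev es sh cr tf tr1 u0)
open Cfsg.Agent.H952.F4.Jord Cfsg.Agent.H163.E6

universe u

variable {F : Type u} [Field F]

/-- the code of an unordered pair -/
def pcode (n : ℕ) (p : Fin n × Fin n) : ℕ :=
  if p.1 = p.2 then 0 else if p.1 < p.2 then p.1.val * n + p.2.val + 1 else p.2.val * n + p.1.val + 1

/-- the sum over a 4-cycle -/
def Z {n : ℕ} (w : Fin n → Fin n → I27 → F) (a b c d : Fin n) : I27 → F := w a c + w b c + w a d + w b d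

/-- the pairs meeting both `{0, 1}` and `{2, 3}` -/
def kap {n : ℕ} (i j : Fin n) : Bool := (i.val < 2 && 2 ≤ j.val && j.val < 4) || (j.val < 2 && 2 ≤ i.val && i.val < 4)

/-- sum of the operators of a list of group elements -/
theorem sum_app {G : Type*} [Group G] (σ : Representation F G (I27 → F)) (L : List G) (x : I27 → F) :
    (L.map fun s => σ s).sum x = (L.map fun s => σ s x).sum := by
  induction L with
  | nil => rfl
  | cons a L ih => rw [List.map_cons, List.sum_cons, List.map_cons, List.sum_cons, ← ih]; rfl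

/-- the property of the list of group elements used to isolate a 4-cycle -/
def Good (n : ℕ) (L : List ↥(alternatingGroup (Fin n))) : Prop :=
  (∀ x y : Fin n × Fin n, pcode n x = pcode n y → x = y ∨ x = (y.2, y.1) ∨ (x.1 = x.2 ∧ y.1 = y.2)) ∧
  (∀ x : Fin n × Fin n, pcode n x < n * n + 1) ∧
  ∀ (z0 z1 z2 z3 : Fin n), z0.val = 0 → z1.val = 1 → z2.val = 2 → z3.val = 3 → ∀ i j : Fin n, ∀ k < n * n + 1,
    k = 0 ∨ ((L.map fun s : ↥(alternatingGroup (Fin n)) => ((s : Perm (Fin n)) i, (s : Perm (Fin n)) j)) ++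
      (if kap i j then [(z0, z2), (z1, z2), (z0, z3), (z1, z3)] else [])).countP (fun x => pcode n x == k) % 2 = 0

def l7 : List ↥(alternatingGroup (Fin 7)) :=
  let t : ↥(alternatingGroup (Fin 7)) := ⟨c[4, 5, 6], Perm.mem_alternatingGroup.2 (by decide +kernel)⟩
  let a : ↥(alternatingGroup (Fin 7)) := ⟨swap 0 1 * swap 4 5, Perm.mem_alternatingGroup.2 (by decide +kernel)⟩
  let b : ↥(alternatingGroup (Fin 7)) := ⟨swap 2 3 * swap 4 5, Perm.mem_alternatingGroup.2 (by decide +kernel)⟩
  [1, t, t * t, a, a * t, a * t * t, b, b * t, b * t * t, b * a, b * a * t, b * a * t * t]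

def l8 : List ↥(alternatingGroup (Fin 8)) :=
  let t : ↥(alternatingGroup (Fin 8)) := ⟨c[4, 5, 6], Perm.mem_alternatingGroup.2 (by decide +kernel)⟩
  let a : ↥(alternatingGroup (Fin 8)) := ⟨swap 0 1 * swap 4 5, Perm.mem_alternatingGroup.2 (by decide +kernel)⟩
  let b : ↥(alternatingGroup (Fin 8)) := ⟨swap 2 3 * swap 4 5, Perm.mem_alternatingGroup.2 (by decide +kernel)⟩
  [1, t, t * t, a, a * t, a * t * t, b, b * t, b * t * t, b * a, b * a * t, b * a * t * t]

theorem good7 : Good 7 l7 := by
  refine ⟨by decide +kernel, by decide +kernel, ?_⟩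
  intro z0 z1 z2 z3 h0 h1 h2 h3
  obtain rfl : z0 = 0 := Fin.ext h0
  obtain rfl : z1 = 1 := Fin.ext h1
  obtain rfl : z2 = 2 := Fin.ext h2
  obtain rfl : z3 = 3 := Fin.ext h3
  decide +kernel

theorem good8 : Good 8 l8 := by
  refine ⟨by decide +kernel, by decide +kernel, ?_⟩
  intro z0 z1 z2 z3 h0 h1 h2 h3
  obtain rfl : z0 = 0 := Fin.ext h0
  obtain rfl : z1 = 1 := Fin.ext h1
  obtain rfl : z2 = 2 := Fin.ext h2
  obtain rfl : z3 = 3 := Fin.ext h3
  decide +kernel

section

variable {n : ℕ} {σ : Representation F ↥(alternatingGroup (Fin n)) (I27 → F)} {L : List ↥(alternatingGroup (Fin n))}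

theorem isolate (h2 : (2 : F) = 0) (hL : Good n L) {w : Fin n → Fin n → I27 → F} (hw : Fam2 σ w)
    {z0 z1 z2 z3 : Fin n} (h0 : z0.val = 0) (h1 : z1.val = 1) (h2' : z2.val = 2) (h3 : z3.val = 3) (i j : Fin n) :
    (L.map fun s => σ s).sum (w i j) = if kap i j then Z w z0 z1 z2 z3 else 0 := by
  have h4 := par_zero h2 (pcode n) (n * n + 1) (fun p : Fin n × Fin n => w p.1 p.2)
    (by
      intro x y hxy
      rcases hL.1 x y hxy with h | h | ⟨h, h'⟩
      · rw [h]
      · rw [h]; exact hw.comm _ _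
      · change w x.1 x.2 = w y.1 y.2
        rw [h, h', hw.diag, hw.diag])
    (by
      intro x hx
      have : x.1 = x.2 := by
        unfold pcode at hx
        split_ifs at hx with h
        exact h
      change w x.1 x.2 = 0
      rw [this, hw.diag])
    hL.2.1 _ (hL.2.2 z0 z1 z2 z3 h0 h1 h2' h3 i j)
  rw [List.map_append, List.sum_append, List.map_map] at h4
  rw [sum_app]
  have h5 : (L.map fun s => σ s (w i j)) = L.map ((fun p : Fin n × Fin n => w p.1 p.2) ∘
      fun s : ↥(alternatingGroup (Fin n)) => ((s : Perm (Fin n)) i, (s : Perm (Fin n)) j)) := by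
    apply List.map_congr_left
    intro s _
    exact hw.act s i j
  rw [h5]
  rw [eq_of_add2 h2 h4]
  split_ifs
  · simp [Z, add_assoc]
  · simp

/-- relations between the members of a family indexed by pairs -/
theorem cyc_rel (h2 : (2 : F) = 0) (hn : 6 ≤ n) (hL : Good n L) {w : Fin n → Fin n → I27 → F} (hw : Fam2 σ w)
    {z0 z1 z2 z3 : Fin n} (h0 : z0.val = 0) (h1 : z1.val = 1) (h2' : z2.val = 2) (h3 : z3.val = 3)
    (hZ : Z w z0 z1 z2 z3 ≠ 0) {X : Fin n → Fin n → F} (hX : ∑ i, ∑ j, X i j • w i j = 0) {a b c d : Fin n}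
    (hab : a ≠ b) (hac : a ≠ c) (had : a ≠ d) (hbc : b ≠ c) (hbd : b ≠ d) (hcd : c ≠ d) :
    (X a c + X c a) + (X b c + X c b) + (X a d + X d a) + (X b d + X d b) = 0 := by
  have hne : ∀ {x y : Fin n}, x.val ≠ y.val → x ≠ y := fun h h' => h (congrArg Fin.val h')
  obtain ⟨g, g0, g1, g2, g3⟩ := move4 hn (hne (x := z0) (y := z1) (by omega)) (hne (x := z0) (y := z2) (by omega))
    (hne (x := z0) (y := z3) (by omega)) (hne (x := z1) (y := z2) (by omega)) (hne (x := z1) (y := z3) (by omega))
    (hne (x := z2) (y := z3) (by omega)) hab hac had hbc hbd hcd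
  have h4 : ∑ i, ∑ j, X ((g : Perm (Fin n)) i) ((g : Perm (Fin n)) j) • w i j = 0 := by
    have h5 : σ g (∑ i, ∑ j, X ((g : Perm (Fin n)) i) ((g : Perm (Fin n)) j) • w i j) = 0 := by
      rw [← hX, map_sum]
      rw [← Equiv.sum_comp (g : Perm (Fin n)) (fun i => ∑ j, X i j • w i j)]
      apply Finset.sum_congr rfl
      intro i _
      rw [map_sum, ← Equiv.sum_comp (g : Perm (Fin n)) (fun j => X ((g : Perm (Fin n)) i) j • w ((g : Perm (Fin n)) i) j)]
      apply Finset.sum_congr rfl
      intro j _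
      rw [map_smul, hw.act]
    rw [← inv_app (σ := σ) g (∑ i, ∑ j, X ((g : Perm (Fin n)) i) ((g : Perm (Fin n)) j) • w i j), h5, map_zero]
  have h5 := congrArg ((L.map fun s => σ s).sum) h4
  rw [map_sum, map_zero] at h5
  have h6 : ∀ i j, (L.map fun s => σ s).sum (X ((g : Perm (Fin n)) i) ((g : Perm (Fin n)) j) • w i j) =
      (if kap i j then X ((g : Perm (Fin n)) i) ((g : Perm (Fin n)) j) else 0) • Z w z0 z1 z2 z3 := by
    intro i j
    rw [map_smul, isolate h2 hL hw h0 h1 h2' h3]
    split_ifs <;> simp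
  simp_rw [map_sum, h6, ← Finset.sum_smul] at h5
  have h7 := (smul_eq_zero.1 h5).resolve_right hZ
  rw [← Fintype.sum_prod_type' (f := fun i j => if kap i j then X ((g : Perm (Fin n)) i) ((g : Perm (Fin n)) j) else 0)]
    at h7
  rw [← Finset.sum_filter] at h7
  have h8 : (Finset.univ.filter fun p : Fin n × Fin n => kap p.1 p.2 = true) =
      {(z0, z2), (z2, z0), (z1, z2), (z2, z1), (z0, z3), (z3, z0), (z1, z3), (z3, z1)} := by
    ext p
    simp only [Finset.mem_filter, Finset.mem_univ, true_and, Finset.mem_insert, Finset.mem_singleton, kap,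
      Bool.or_eq_true, Bool.and_eq_true, decide_eq_true_eq, Prod.ext_iff, Fin.ext_iff]
    omega
  rw [h8] at h7
  rw [Finset.sum_insert, Finset.sum_insert, Finset.sum_insert, Finset.sum_insert, Finset.sum_insert, Finset.sum_insert,
    Finset.sum_insert, Finset.sum_singleton, g0, g1, g2, g3] at h7
  · rw [← h7]; ring
  all_goals
    simp only [Finset.mem_insert, Finset.mem_singleton, Prod.ext_iff, Fin.ext_iff, not_or, not_and]
    omega

theorem Z_zero (hn : 6 ≤ n) {w : Fin n → Fin n → I27 → F} (hw : Fam2 σ w)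
    {a b c d a' b' c' d' : Fin n} (h : Z w a b c d = 0)
    (hab : a ≠ b) (hac : a ≠ c) (had : a ≠ d) (hbc : b ≠ c) (hbd : b ≠ d) (hcd : c ≠ d)
    (hab' : a' ≠ b') (hac' : a' ≠ c') (had' : a' ≠ d') (hbc' : b' ≠ c') (hbd' : b' ≠ d') (hcd' : c' ≠ d') :
    Z w a' b' c' d' = 0 := by
  obtain ⟨g, g0, g1, g2, g3⟩ := move4 hn hab hac had hbc hbd hcd hab' hac' had' hbc' hbd' hcd'
  have h1 := congrArg (σ g) h
  rw [Z, map_add, map_add, map_add, hw.act, hw.act, hw.act, hw.act, g0, g1, g2, g3, map_zero] at h1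
  exact h1

/-- the index set of the basis -/
def BP {n : ℕ} (p : Fin n × Fin n) : Prop := 0 < p.1.val ∧ p.1.val < p.2.val ∧ ¬(p.1.val = 1 ∧ p.2.val = 2)

instance {n : ℕ} : DecidablePred (BP (n := n)) := fun p => by unfold BP; infer_instance

theorem card_BP7 : Fintype.card {p : Fin 7 × Fin 7 // BP p} = 14 := by decide +kernel

theorem card_BP8 : Fintype.card {p : Fin 8 × Fin 8 // BP p} = 20 := by decide +kernel

theorem indep (h2 : (2 : F) = 0) (hn : 6 ≤ n) (hL : Good n L) {w : Fin n → Fin n → I27 → F} (hw : Fam2 σ w)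
    {z0 z1 z2 z3 : Fin n} (h0 : z0.val = 0) (h1 : z1.val = 1) (h2' : z2.val = 2) (h3 : z3.val = 3)
    (hZ : Z w z0 z1 z2 z3 ≠ 0) : LinearIndependent F (fun p : {p : Fin n × Fin n // BP p} => w p.1.1 p.1.2) := by
  classical
  rw [Fintype.linearIndependent_iff]
  intro c hc
  let X : Fin n → Fin n → F := fun i j => if h : BP (i, j) then c ⟨(i, j), h⟩ else 0
  have hX0 : ∀ i j, ¬ BP (i, j) → X i j = 0 := fun i j h => by simp [X, h]
  have hX : ∑ i, ∑ j, X i j • w i j = 0 := by
    rw [← hc]
    rw [← Fintype.sum_prod_type' (f := fun i j => X i j • w i j)]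
    rw [← Finset.sum_filter_add_sum_filter_not Finset.univ (fun p : Fin n × Fin n => BP p)]
    have h4 : ∑ p ∈ Finset.univ.filter (fun p : Fin n × Fin n => ¬ BP p), X p.1 p.2 • w p.1 p.2 = 0 := by
      apply Finset.sum_eq_zero
      intro p hp
      rw [Finset.mem_filter] at hp
      rw [hX0 p.1 p.2 hp.2, zero_smul]
    rw [h4, add_zero]
    rw [Finset.sum_subtype (Finset.univ.filter (fun p : Fin n × Fin n => BP p)) (p := fun p => BP p) (by simp)
      (fun p => X p.1 p.2 • w p.1 p.2)]
    apply Finset.sum_congr rfl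
    intro p _
    simp [X, p.2]
  have key := fun {a b c d : Fin n} => cyc_rel (a := a) (b := b) (c := c) (d := d) h2 hn hL hw h0 h1 h2' h3 hZ hX
  have hne : ∀ {x y : Fin n}, x.val ≠ y.val → x ≠ y := fun h h' => h (congrArg Fin.val h')
  have e1 : ∀ j, X z0 j + X j z0 = 0 := by
    intro j
    rw [hX0 z0 j (by unfold BP; simp; omega), hX0 j z0 (by unfold BP; simp; omega), add_zero]
  have e2 : X z1 z2 + X z2 z1 = 0 := by
    rw [hX0 z1 z2 (by unfold BP; simp; omega), hX0 z2 z1 (by unfold BP; simp; omega), add_zero]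
  have e2' : X z2 z1 + X z1 z2 = 0 := by rw [add_comm]; exact e2
  have e3 : ∀ j : Fin n, 3 ≤ j.val → X z1 j + X j z1 = 0 := by
    intro j hj
    have := key (a := z0) (b := z1) (c := z2) (d := j) (hne (by omega)) (hne (by omega)) (hne (by omega))
      (hne (by omega)) (hne (by omega)) (hne (by omega))
    rw [e1, e1, e2] at this
    simpa using this
  have e4 : ∀ j : Fin n, 3 ≤ j.val → X z2 j + X j z2 = 0 := by
    intro j hj
    have := key (a := z0) (b := z2) (c := z1) (d := j) (hne (by omega)) (hne (by omega)) (hne (by omega))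
      (hne (by omega)) (hne (by omega)) (hne (by omega))
    rw [e1, e1, e2'] at this
    simpa using this
  have e5 : ∀ i j : Fin n, 3 ≤ i.val → i.val < j.val → X i j + X j i = 0 := by
    intro i j hi hj
    have := key (a := z0) (b := i) (c := z1) (d := j) (hne (by omega)) (hne (by omega)) (hne (by omega))
      (hne (by omega)) (hne (by omega)) (hne (by omega))
    rw [e1, e1, add_comm (X i z1), e3 i hi] at this
    simpa using this
  rintro ⟨⟨i, j⟩, hij⟩
  have h4 : X i j = c ⟨(i, j), hij⟩ := by simp [X, hij]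
  rw [← h4]
  have hij' := hij
  unfold BP at hij'
  simp only at hij'
  have h5 : X j i = 0 := hX0 j i (by unfold BP; simp; omega)
  have h6 : X i j + X j i = 0 := by
    by_cases hi1 : i.val = 1
    · obtain rfl : i = z1 := Fin.ext (by omega)
      exact e3 j (by omega)
    · by_cases hi2 : i.val = 2
      · obtain rfl : i = z2 := Fin.ext (by omega)
        exact e4 j (by omega)
      · exact e5 i j (by omega) (by omega)
  rw [h5, add_zero] at h6
  exact h6

end

end Cfsg.Agent.H905.E6T
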