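import Mathlib
import Cfsg.Agent.H905.E6T.Pair

/-!
# S5927, characteristic 2, `A₇` (helper905)

`seven_main` : `A₇` acts on `V`, `V'` without fixed vectors, `v`, `u` two independent equivariant families in `V`; then
`cr (v i) (v j) = 0`.
-/

set_option autoImplicit false
set_option linter.unusedSectionVars false
set_option linter.unusedSimpArgs false
set_option linter.unusedTactic false

namespace Cfsg.Agent.H905.E6T

open Cfsg Cfsg.Lie Module Equiv
open Cfsg.Agent.ChevalleyStructure.E6Min.Tables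
open Cfsg.Agent.H952.F4 (ev es sh cr tf tr1 u0)
open Cfsg.Agent.H952.F4.Jord Cfsg.Agent.H163.E6

universe u

variable {F : Type u} [Field F]

/-! ### the action on a quotient of dimension one is trivial -/

theorem triv_quot {n : ℕ} (hn : 5 ≤ n) {σ : Representation F ↥(alternatingGroup (Fin n)) (I27 → F)}
    {U R : Submodule F (I27 → F)} (hUR : U ≤ R) (hU : ∀ g, ∀ x ∈ U, σ g x ∈ U) (hR : ∀ g, ∀ x ∈ R, σ g x ∈ R)
    (hfr : finrank F R ≤ finrank F U + 1) {r : I27 → F} (hr : r ∈ R) (g : ↥(alternatingGroup (Fin n))) :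
    σ g r - r ∈ U := by
  classical
  by_cases hrU : r ∈ U
  · exact U.sub_mem (hU g r hrU) hrU
  obtain ⟨f, hf, hfU⟩ := Submodule.exists_dual_map_eq_bot_of_notMem hrU inferInstance
  have hf0 : ∀ x ∈ U, f x = 0 := by
    intro x hx
    have h1 : f x ∈ U.map f := ⟨x, hx, rfl⟩
    rw [hfU] at h1
    exact (Submodule.mem_bot F).1 h1
  -- `R = U + F r`
  have hsum : ∀ x ∈ R, ∃ c : F, x - c • r ∈ U := by
    have h1 : U ⊔ Submodule.span F {r} ≤ R := sup_le hUR (by
      rw [Submodule.span_singleton_le_iff_mem]; exact hr)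
    have h2 : U < U ⊔ Submodule.span F {r} := by
      refine lt_of_le_of_ne le_sup_left ?_
      intro h
      apply hrU
      rw [h]
      exact le_sup_right (a := U) (Submodule.mem_span_singleton_self r)
    have h3 := Submodule.finrank_lt_finrank_of_lt h2
    have h4 : U ⊔ Submodule.span F {r} = R := Submodule.eq_of_le_of_finrank_le h1 (by omega)
    intro x hx
    rw [← h4] at hx
    obtain ⟨a, ha, b, hb, hab⟩ := Submodule.mem_sup.1 hx
    obtain ⟨c, rfl⟩ := Submodule.mem_span_singleton.1 hb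
    exact ⟨c, by rw [← hab, add_sub_cancel_right]; exact ha⟩
  have hker : ∀ x ∈ R, f x = 0 → x ∈ U := by
    intro x hx hx0
    obtain ⟨c, hc⟩ := hsum x hx
    have h1 := hf0 _ hc
    rw [map_sub, map_smul, hx0, zero_sub, neg_eq_zero, smul_eq_mul] at h1
    have h2 : c = 0 := (mul_eq_zero.1 h1).resolve_right hf
    rw [h2, zero_smul, sub_zero] at hc
    exact hc
  let χ : ↥(alternatingGroup (Fin n)) →* F :=
    { toFun := fun g => f (σ g r) / f r
      map_one' := by rw [one_app, div_self hf]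
      map_mul' := by
        intro a b
        obtain ⟨c, hc⟩ := hsum (σ b r) (hR b r hr)
        have h1 : f (σ b r) = c * f r := by
          have := hf0 _ hc
          rw [map_sub, map_smul, sub_eq_zero, smul_eq_mul] at this
          exact this
        have h2 : f (σ (a * b) r) = c * f (σ a r) := by
          have := hf0 _ (hU a _ hc)
          rw [map_sub, map_smul, map_sub, map_smul, ← mul_app, sub_eq_zero, smul_eq_mul] at this
          exact this
        rw [h2, h1]
        field_simp }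
  have h1 := hom_eq_one hn χ.toHomUnits g
  have h2 : f (σ g r) / f r = 1 := congrArg Units.val h1
  rw [div_eq_one_iff_eq hf] at h2
  apply hker _ (R.sub_mem (hR g r hr) hr)
  rw [map_sub, h2, sub_self]

/-! ### the class sum of the elements of order 3 of `A₇` -/

/-- the product of two transpositions -/
def tau {n : ℕ} (p : Fin n × Fin n × Fin n) : ↥(alternatingGroup (Fin n)) :=
  if h : p.1 ≠ p.2.1 ∧ p.2.1 ≠ p.2.2 then ⟨swap p.1 p.2.1 * swap p.2.1 p.2.2, by
    rw [Perm.mem_alternatingGroup, Perm.sign_mul, Perm.sign_swap h.1, Perm.sign_swap h.2]; rfl⟩ else 1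

/-- the triples of different points -/
def trip (n : ℕ) : Finset (Fin n × Fin n × Fin n) :=
  Finset.univ.filter fun p => p.1 ≠ p.2.1 ∧ p.2.1 ≠ p.2.2 ∧ p.1 ≠ p.2.2

theorem tau_coe {n : ℕ} {p : Fin n × Fin n × Fin n} (hp : p ∈ trip n) :
    (tau p : Perm (Fin n)) = swap p.1 p.2.1 * swap p.2.1 p.2.2 := by
  rw [trip, Finset.mem_filter] at hp
  rw [tau, dif_pos ⟨hp.2.1, hp.2.2.1⟩]

/-- the operator -/
noncomputable def Cop {n : ℕ} (σ : Representation F ↥(alternatingGroup (Fin n)) (I27 → F)) : (I27 → F) →ₗ[F] (I27 → F) :=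
  ∑ p ∈ trip n, σ (tau p)

theorem Cop_apply {n : ℕ} (σ : Representation F ↥(alternatingGroup (Fin n)) (I27 → F)) (x : I27 → F) :
    Cop σ x = ∑ p ∈ trip n, σ (tau p) x := by
  rw [Cop, LinearMap.sum_apply]

theorem Cop_comm {n : ℕ} (σ : Representation F ↥(alternatingGroup (Fin n)) (I27 → F)) (g : ↥(alternatingGroup (Fin n)))
    (x : I27 → F) : Cop σ (σ g x) = σ g (Cop σ x) := by
  rw [Cop_apply, Cop_apply, map_sum]
  let e : Perm (Fin n × Fin n × Fin n) :=
    Equiv.prodCongr (g : Perm (Fin n)) (Equiv.prodCongr (g : Perm (Fin n)) (g : Perm (Fin n)))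
  have he : ∀ p, e p = ((g : Perm (Fin n)) p.1, (g : Perm (Fin n)) p.2.1, (g : Perm (Fin n)) p.2.2) := fun p => rfl
  have hmem : ∀ p, p ∈ trip n ↔ e p ∈ trip n := by
    intro p
    rw [he, trip, Finset.mem_filter, Finset.mem_filter]
    simp [(g : Perm (Fin n)).injective.ne_iff]
  symm
  refine Finset.sum_equiv e hmem ?_
  intro p hp
  rw [← mul_app, ← mul_app]
  congr 1
  apply congrArg
  apply Subtype.ext
  rw [Subgroup.coe_mul, Subgroup.coe_mul, tau_coe hp, tau_coe ((hmem p).1 hp), he]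
  simp only
  have h1 : ∀ a b : Fin n, swap ((g : Perm (Fin n)) a) ((g : Perm (Fin n)) b) * (g : Perm (Fin n)) =
      (g : Perm (Fin n)) * swap a b := by
    intro a b
    exact (Equiv.mul_swap_eq_swap_mul (g : Perm (Fin n)) a b).symm
  rw [mul_assoc, h1, ← mul_assoc, ← mul_assoc, h1, mul_assoc]

theorem count7 : ∀ j : Fin 7, ((trip 7).filter fun p => (swap p.1 p.2.1 * swap p.2.1 p.2.2 : Perm (Fin 7)) 0 = j).card =
    if j = 0 then 120 else 15 := by decide +kernel

theorem card_trip7 : (trip 7).card = 210 := by decide +kernel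

section

variable {σ σ' : Representation F ↥(alternatingGroup (Fin 7)) (I27 → F)}

theorem Cop_fam (h2 : (2 : F) = 0) {v : Fin 7 → I27 → F} (hv : Fam σ v) (hs : ∑ i, v i = 0) (i : Fin 7) :
    Cop σ (v i) = v i := by
  have h0 : Cop σ (v 0) = v 0 := by
    rw [Cop_apply]
    have h1 : ∀ p ∈ trip 7, σ (tau p) (v 0) = v ((swap p.1 p.2.1 * swap p.2.1 p.2.2 : Perm (Fin 7)) 0) := by
      intro p hp
      rw [hv, tau_coe hp]
    rw [Finset.sum_congr rfl h1]
    rw [← Finset.sum_fiberwise_of_maps_to (s := trip 7) (t := Finset.univ)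
      (g := fun p => (swap p.1 p.2.1 * swap p.2.1 p.2.2 : Perm (Fin 7)) 0) (fun _ _ => Finset.mem_univ _)]
    have h3 : ∀ j ∈ (Finset.univ : Finset (Fin 7)),
        ∑ p ∈ (trip 7).filter (fun p => (swap p.1 p.2.1 * swap p.2.1 p.2.2 : Perm (Fin 7)) 0 = j),
          v ((swap p.1 p.2.1 * swap p.2.1 p.2.2 : Perm (Fin 7)) 0) = v j - (if j = 0 then v j else 0) := by
      intro j _
      have h4 : ∀ p ∈ (trip 7).filter (fun p => (swap p.1 p.2.1 * swap p.2.1 p.2.2 : Perm (Fin 7)) 0 = j),
          v ((swap p.1 p.2.1 * swap p.2.1 p.2.2 : Perm (Fin 7)) 0) = v j := by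
        intro p hp
        rw [(Finset.mem_filter.1 hp).2]
      rw [Finset.sum_congr rfl h4, Finset.sum_const, count7]
      split_ifs with hj
      · rw [sub_self, ← Nat.cast_smul_eq_nsmul F]
        have : ((120 : ℕ) : F) = 0 := by
          rw [show (120 : ℕ) = 2 * 60 by norm_num, Nat.cast_mul, Nat.cast_ofNat, h2, zero_mul]
        rw [this, zero_smul]
      · rw [sub_zero, ← Nat.cast_smul_eq_nsmul F]
        have : ((15 : ℕ) : F) = 1 := by
          rw [show (15 : ℕ) = 2 * 7 + 1 by norm_num, Nat.cast_add, Nat.cast_mul, Nat.cast_ofNat, h2, zero_mul, zero_add,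
            Nat.cast_one]
        rw [this, one_smul]
    rw [Finset.sum_congr rfl h3, Finset.sum_sub_distrib, hs, zero_sub, Finset.sum_ite_eq',
      if_pos (Finset.mem_univ _)]
    rw [neg_eq_iff_add_eq_zero]
    exact add_self2 h2 _
  obtain ⟨g, hg⟩ := move1 (n := 7) (by norm_num) 0 i
  rw [← hg, ← hv, Cop_comm, h0]

/-- the last step of `seven_main` -/
theorem no_thirteen (h2 : (2 : F) = 0) (hinv : σ.invariants = ⊥) {U R : Submodule F (I27 → F)} (hUR : U ≤ R)
    (hU : ∀ g, ∀ x ∈ U, σ g x ∈ U) (hR : ∀ g, ∀ x ∈ R, σ g x ∈ R) (hfr : finrank F R = finrank F U + 1)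
    (hC : ∀ x ∈ U, Cop σ x = x) : False := by
  have h1 : ∃ r ∈ R, r ∉ U := by
    by_contra h
    push Not at h
    have h3 : R ≤ U := h
    have := Submodule.finrank_mono h3
    omega
  obtain ⟨r, hr, hrU⟩ := h1
  have h3 := fun g => triv_quot (by norm_num) hUR hU hR hfr.le hr g
  have h4 : Cop σ r ∈ U := by
    have h5 : Cop σ r = ∑ p ∈ trip 7, (σ (tau p) r - r) + ∑ p ∈ trip 7, r := by
      rw [Cop_apply, ← Finset.sum_add_distrib]
      apply Finset.sum_congr rfl
      intro p _
      rw [sub_add_cancel]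
    rw [h5, Finset.sum_const, card_trip7, ← Nat.cast_smul_eq_nsmul F]
    have : ((210 : ℕ) : F) = 0 := by
      rw [show (210 : ℕ) = 2 * 105 by norm_num, Nat.cast_mul, Nat.cast_ofNat, h2, zero_mul]
    rw [this, zero_smul, add_zero]
    exact U.sum_mem fun p _ => h3 _
  have h5 : r + Cop σ r = 0 := by
    apply mem_inv hinv
    intro g
    obtain ⟨w, hw, hgr⟩ : ∃ w ∈ U, σ g r = r + w := ⟨_, h3 g, by rw [add_sub_cancel]⟩
    rw [map_add, ← Cop_comm, hgr, map_add, hC w hw]
    have : r + w + (Cop σ r + w) = r + Cop σ r + (w + w) := by abel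
    rw [this, add_self2 h2, add_zero]
  apply hrU
  rw [eq_of_add2 h2 h5]
  exact h4

theorem Cop_span {ι : Type*} {f : ι → I27 → F} (h : ∀ i, Cop σ (f i) = f i) :
    ∀ x ∈ Submodule.span F (Set.range f), Cop σ x = x := by
  intro x hx
  induction hx using Submodule.span_induction with
  | mem x hx => obtain ⟨i, rfl⟩ := hx; exact h i
  | zero => exact map_zero _
  | add a b _ _ ha hb => rw [map_add, ha, hb]
  | smul c a _ ha => rw [map_smul, ha]

end

theorem span_stable {G : Type*} [Group G] {σ : Representation F G (I27 → F)} {ι : Type*} {f : ι → I27 → F}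
    (h : ∀ g i, ∃ j, σ g (f i) = f j) (g : G) : ∀ x ∈ Submodule.span F (Set.range f),
      σ g x ∈ Submodule.span F (Set.range f) := by
  intro x hx
  induction hx using Submodule.span_induction with
  | mem x hx =>
    obtain ⟨i, rfl⟩ := hx
    obtain ⟨j, hj⟩ := h g i
    rw [hj]
    exact Submodule.subset_span ⟨j, rfl⟩
  | zero => rw [map_zero]; exact Submodule.zero_mem _
  | add a b _ _ ha hb => rw [map_add]; exact Submodule.add_mem _ ha hb
  | smul c a _ ha => rw [map_smul]; exact Submodule.smul_mem _ _ ha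

end Cfsg.Agent.H905.E6T
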